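import Cfsg.Prelude.Def_DegreeGraph
import Cfsg.Agent.Lib.Clifford.Basic
import Cfsg.Agent.Lib.CharTheory.Linear
import Cfsg.Agent.Lib.ZerosCodegree.CharBasics
import Mathlib

/-!
Affine groups `R ⋊ Rˣ` of finite commutative rings: solvable, with an irreducible character of
degree `|Rˣ|` when some additive character has trivial stabiliser.
-/

set_option autoImplicit false

open Cfsg CfsgLib.CharTheory CfsgLib.Clifford

namespace CfsgLib.OrderDegrees

variable (R : Type*) [CommRing R]

/-- The action of units by multiplication. -/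
def unitsAct : Rˣ →* MulAut (Multiplicative R) where
  toFun u :=
    { toFun := fun a => Multiplicative.ofAdd ((u : R) * Multiplicative.toAdd a)
      invFun := fun a => Multiplicative.ofAdd (((u⁻¹ : Rˣ) : R) * Multiplicative.toAdd a)
      left_inv := fun a => by simp
      right_inv := fun a => by simp
      map_mul' := fun a b => by simp [mul_add] }
  map_one' := by ext a; simp
  map_mul' u v := by ext a; simp [mul_assoc]

/-- The affine group of a commutative ring. -/
abbrev Aff : Type _ := SemidirectProduct (Multiplicative R) Rˣ (unitsAct R)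

theorem card_aff [Finite R] : Nat.card (Aff R) = Nat.card R * Nat.card Rˣ := by
  rw [SemidirectProduct.card, Nat.card_congr Multiplicative.toAdd]

theorem isSolvable_aff : Group.IsSolvable (Aff R) :=
  solvable_of_ker_le_range (SemidirectProduct.inl) (SemidirectProduct.rightHom)
    SemidirectProduct.range_inl_eq_ker_rightHom.ge

theorem exists_aff_irr [Finite R] (ψ : AddChar R ℂ)
    (hψ : ∀ u : Rˣ, (∀ r, ψ ((u : R) * r) = ψ r) → u = 1) :
    ∃ χ : IrrCharacter (Aff R), (χ : Aff R → ℂ) 1 = (Nat.card Rˣ : ℂ) := by
  classical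
  haveI : Finite (Aff R) := Finite.of_equiv _ SemidirectProduct.equivProd.symm
  haveI := Fintype.ofFinite (Aff R)
  set N : Subgroup (Aff R) := (SemidirectProduct.rightHom : Aff R →* Rˣ).ker with hN
  let μ : N →* ℂˣ := MonoidHom.toHomUnits
    { toFun := fun n => ψ (Multiplicative.toAdd (n : Aff R).left)
      map_one' := by simp
      map_mul' := fun a b => by
        have ha : (a : Aff R).right = 1 := a.2
        simp [SemidirectProduct.mul_left, ha, AddChar.map_add_eq_mul] }
  have hθ := isIrrCharacter_linear μ
  set θ : N → ℂ := fun n => (μ n : ℂ) with hθdef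
  have hθn : ∀ n : N, θ n = ψ (Multiplicative.toAdd (n : Aff R).left) := fun n => rfl
  have hconj : ∀ (g : Aff R) (n : N), θ ⟨g * n * g⁻¹, (inferInstance : N.Normal).conj_mem (n : Aff R) n.2 g⟩ =
      ψ ((g.right : R) * Multiplicative.toAdd (n : Aff R).left) := by
    intro g n
    have hn : (n : Aff R).right = 1 := n.2
    rw [hθn]
    congr 1
    simp [SemidirectProduct.mul_left, SemidirectProduct.inv_left, unitsAct, hn, mul_add]
  have hT : ∀ g : Aff R, g ∈ N ↔ conjChar N θ g = θ := by
    intro g
    rw [conjChar_eq_self_iff]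
    constructor
    · intro hg n
      rw [hconj, hθn, show g.right = 1 from hg, Units.val_one, one_mul]
    · intro h
      refine hψ g.right fun r => ?_
      have := h ⟨SemidirectProduct.inl (Multiplicative.ofAdd r), (SemidirectProduct.right_inl _ : (SemidirectProduct.inl (φ := unitsAct R) (Multiplicative.ofAdd r)).right = 1)⟩
      rw [hconj, hθn] at this
      simpa using this
  obtain ⟨hirr, -⟩ := isIrrCharacter_indFun_inertia hθ hT le_rfl hθ (by
    rw [classInner_self_of_isIrr hθ]; exact one_ne_zero)
  refine ⟨⟨_, hirr⟩, ?_⟩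
  show indFun N θ 1 = _
  have hμ1 : θ 1 = 1 := by simp [θ]
  rw [CfsgLib.Frobenius.indFun_one, hμ1, mul_one, Nat.cast_inj, hN, Subgroup.index_ker,
    MonoidHom.range_eq_top.2 SemidirectProduct.rightHom_surjective, Subgroup.card_top]

end CfsgLib.OrderDegrees
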