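import Cfsg.Prelude.Def_DegreeGraph
import Cfsg.Agent.Lib.Frobenius.Induce
import Cfsg.Agent.Lib.CharTheory.Decomp
import Cfsg.Agent.Lib.CharTheory.Linear
import Cfsg.Agent.Lib.CharTheory.Orthogonality
import Cfsg.Agent.Lib.CharTheory.Inflation
import Cfsg.Agent.Lib.ZerosCodegree.CharBasics
import Mathlib

/-!
Character degrees of a simple group of order 6048 from the principal series of a subgroup of
order 216: some degree is divisible by 21, some by 14, some by 6.
-/

set_option autoImplicit false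

open Cfsg CfsgLib.CharTheory
open scoped ComplexConjugate commutatorElement

namespace CfsgLib.OrderDegrees.Borel6048

variable {G : Type*} [Group G]

/-- The basic character of `ZMod 8`. -/
noncomputable def psi (a : ZMod 8) : ℂ := ZMod.stdAddChar a

theorem psi_add (a b : ZMod 8) : psi (a + b) = psi a * psi b := ZMod.stdAddChar.map_add_eq_mul a b

theorem psi_zero : psi 0 = 1 := ZMod.stdAddChar.map_zero_eq_one

theorem psi_conj (a : ZMod 8) : conj (psi a) = psi (-a) :=
  (AddChar.map_neg_eq_conj ZMod.stdAddChar a).symm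

theorem zmod_eight_fixed : ∀ k l : ZMod 8, (k = 2 ∨ k = 4 ∨ k = 6) → l ≠ k → k ≠ 5 * l := by decide

theorem zmod_eight_reps : ∀ k : ZMod 8,
    k ∉ ({0, 1, 2, 3, 4, 6} : Finset (ZMod 8)) → k = 5 ∨ k = 7 := by decide

theorem zmod_eight_disjoint : ∀ k ∈ ({0, 1, 2, 3, 4, 6} : Finset (ZMod 8)),
    ∀ l ∈ ({0, 1, 2, 3, 4, 6} : Finset (ZMod 8)), l ≠ k → k ≠ 5 * l := by decide

theorem psi_eq_one {a : ZMod 8} : psi a = 1 ↔ a = 0 := by
  rw [← psi_zero]; exact ZMod.injective_stdAddChar.eq_iff

/-- The hom `g ↦ psi (c * π g)`. -/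
noncomputable def psiHom {H : Type*} [Monoid H] (π : H →* Multiplicative (ZMod 8)) (c : ZMod 8) :
    H →* ℂ where
  toFun g := psi (c * Multiplicative.toAdd (π g))
  map_one' := by simp [psi_zero]
  map_mul' a b := by simp [mul_add, psi_add]

theorem sum_psiHom {H : Type*} [Group H] [Fintype H] (π : H →* Multiplicative (ZMod 8)) (t : H)
    (ht : π t = Multiplicative.ofAdd 1) (c : ZMod 8) :
    ∑ g : H, psi (c * Multiplicative.toAdd (π g)) = if c = 0 then (Nat.card H : ℂ) else 0 := by
  classical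
  split_ifs with hc
  · simp [hc, psi_zero]
  · refine sum_hom_units_eq_zero (psiHom π c) fun h => hc ?_
    have h1 := DFunLike.congr_fun h t
    rw [MonoidHom.one_apply] at h1
    change psi (c * Multiplicative.toAdd (π t)) = 1 at h1
    rw [ht, toAdd_ofAdd, mul_one] at h1
    exact psi_eq_one.1 h1

theorem sum_psi (c : ZMod 8) : ∑ i : ZMod 8, psi (c * i) = if c = 0 then (8 : ℂ) else 0 := by
  classical
  have h := sum_psiHom (MonoidHom.id (Multiplicative (ZMod 8))) (Multiplicative.ofAdd 1) rfl c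
  rw [Fintype.sum_equiv Multiplicative.ofAdd (fun i => psi (c * i))
    (fun g : Multiplicative (ZMod 8) => psi (c * Multiplicative.toAdd g)) fun i => rfl]
  simpa using h

/-- A character of norm two is the sum of two different irreducible characters. -/
theorem exists_pair_of_norm_two [Fintype G] [Fintype (IrrCharacter G)] (M : IrrCharacter G → ℕ)
    (h : ∑ χ, M χ * M χ = 2) :
    ∃ a b : IrrCharacter G, a ≠ b ∧ M a = 1 ∧ M b = 1 ∧ ∀ χ, χ ≠ a → χ ≠ b → M χ = 0 := by
  classical
  set S := (Finset.univ : Finset (IrrCharacter G)).filter fun χ => M χ ≠ 0 with hS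
  have h1 : ∑ χ ∈ S, M χ * M χ = 2 := by
    rw [← h]
    exact Finset.sum_filter_of_ne fun χ _ hne h0 => hne (by simp [h0])
  have hpos : ∀ χ ∈ S, 1 ≤ M χ := fun χ hχ => Nat.one_le_iff_ne_zero.2 (Finset.mem_filter.1 hχ).2
  have hle : ∀ χ ∈ S, M χ * M χ ≤ 2 := fun χ hχ =>
    h1 ▸ Finset.single_le_sum (f := fun χ => M χ * M χ) (fun _ _ => Nat.zero_le _) hχ
  have hone : ∀ χ ∈ S, M χ = 1 := fun χ hχ => by
    have h2 := hle χ hχ
    have h3 := hpos χ hχ
    by_contra hne
    have : 2 * 2 ≤ M χ * M χ := Nat.mul_le_mul (by omega) (by omega)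
    omega
  have hc : S.card = 2 := by
    rw [← h1, Finset.card_eq_sum_ones]
    exact Finset.sum_congr rfl fun χ hχ => by rw [hone χ hχ]
  obtain ⟨a, b, hab, hSab⟩ := Finset.card_eq_two.1 hc
  refine ⟨a, b, hab, hone a (by simp [hSab]), hone b (by simp [hSab]), fun χ ha hb => ?_⟩
  by_contra h0
  have : χ ∈ S := Finset.mem_filter.2 ⟨Finset.mem_univ _, h0⟩
  simp [hSab, ha, hb] at this

section
variable [Fintype G] (B : Subgroup G) (π : B →* Multiplicative (ZMod 8))

/-- The linear character `k` of `B`. -/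
noncomputable def lam (k : ZMod 8) : B → ℂ := fun b => psi (k * Multiplicative.toAdd (π b))

/-- The principal series character `k`. -/
noncomputable def series (k : ZMod 8) : G → ℂ := indFun B (lam B π k)

theorem isIrrCharacter_lam (k : ZMod 8) : IsIrrCharacter B (lam B π k) := by
  have := isIrrCharacter_linear (MonoidHom.toHomUnits (psiHom π k))
  exact this

theorem isCharacter_series (k : ZMod 8) : IsCharacter G (series B π k) :=
  CfsgLib.Frobenius.isCharacter_indFun B _ (IsIrrCharacter.isCharacter (isIrrCharacter_lam B π k))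

theorem lam_conj (k : ZMod 8) (x b : B) : lam B π k (x⁻¹ * b * x) = lam B π k b := by
  simp [lam, mul_comm]

theorem extendByZero_conj (k : ZMod 8) {c : G} (hc : c ∈ B) (y : G) :
    extendByZero B (lam B π k) (c⁻¹ * y * c) = extendByZero B (lam B π k) y := by
  by_cases hy : y ∈ B
  · rw [show c⁻¹ * y * c = (((⟨c, hc⟩ : B)⁻¹ * ⟨y, hy⟩ * ⟨c, hc⟩ : B) : G) from rfl,
      CfsgLib.Frobenius.extendByZero_coe, lam_conj]
    exact (CfsgLib.Frobenius.extendByZero_coe B _ ⟨y, hy⟩).symm
  · rw [CfsgLib.Frobenius.extendByZero_of_not_mem B _ hy,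
      CfsgLib.Frobenius.extendByZero_of_not_mem B _ fun h => hy ?_]
    have := mul_mem (mul_mem hc h) (inv_mem hc)
    simpa [mul_assoc] using this

end

/-- Inner products of the principal series. -/
theorem classInner_series [Fintype G] (B : Subgroup G) (π : B →* Multiplicative (ZMod 8)) {t w : G}
    (ht : t ∈ B) (hπ : π ⟨t, ht⟩ = Multiplicative.ofAdd 1) (hG : Nat.card G = 6048)
    (hB : Nat.card B = 216) (hT : ∀ b ∈ B, w⁻¹ * b * w ∈ B → b ∈ Subgroup.zpowers t)
    (ht8 : orderOf t = 8) (hw : w⁻¹ * t * w = t ^ 5) (k l : ZMod 8) :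
    classInner (series B π k) (series B π l) =
      (if k = l then 1 else 0) + (if k = 5 * l then 1 else 0) := by
  classical
  have hclass := CfsgLib.Frobenius.indFun_isClassFunction B (lam B π l)
  rw [series, series, CfsgLib.Frobenius.classInner_indFun B _ _ hclass]
  have hπs : Function.Surjective π := fun a => by
    refine ⟨⟨t, ht⟩ ^ (Multiplicative.toAdd a).val, ?_⟩
    rw [map_pow, hπ, ← ofAdd_nsmul, nsmul_one, ZMod.natCast_zmod_val, ofAdd_toAdd]
  have hU : Nat.card π.ker = 27 := by
    have h := Subgroup.card_mul_index π.ker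
    rw [Subgroup.index_ker, MonoidHom.range_eq_top.2 hπs, Subgroup.card_top,
      Nat.card_congr Multiplicative.toAdd, Nat.card_zmod, hB] at h
    omega
  have htpow : ∀ g ∈ Subgroup.zpowers t, ∃ i : ZMod 8, t ^ i.val = g := fun g hg => by
    obtain ⟨n, rfl⟩ := mem_powers_iff_mem_zpowers.2 hg
    exact ⟨(n : ZMod 8), by rw [ZMod.val_natCast, ← ht8, pow_mod_orderOf]⟩
  have hπt : ∀ i : ℕ, Multiplicative.toAdd (π ⟨t ^ i, pow_mem ht i⟩) = (i : ZMod 8) := fun i => by
    rw [show (⟨t ^ i, pow_mem ht i⟩ : B) = ⟨t, ht⟩ ^ i from rfl, map_pow, hπ, ← ofAdd_nsmul,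
      toAdd_ofAdd, nsmul_one]
  have hwi : ∀ i : ℕ, w⁻¹ * t ^ i * w = t ^ (5 * i) := fun i => by
    have := (conj_pow (a := w⁻¹) (b := t) (i := i)).symm
    rw [inv_inv] at this
    rw [this, hw, ← pow_mul]
  have hwB : w ∉ B := fun hwB => by
    have hall : (⊤ : Subgroup B) ≤ (Subgroup.zpowers t).subgroupOf B := fun b _ =>
      hT b b.2 (mul_mem (mul_mem (inv_mem hwB) b.2) hwB)
    have := Nat.card_le_card_of_injective (fun b : B => (⟨(b : G), hall (Subgroup.mem_top b)⟩ :
      Subgroup.zpowers t)) fun a b h => Subtype.ext (congrArg (Subtype.val) h :)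
    rw [hB, Nat.card_zpowers, ht8] at this
    omega
  -- the double coset decomposition
  let φ : π.ker × B → G := fun q => ((q.1 : B) : G) * w * (q.2 : G)
  have hφn : ∀ q, φ q ∉ B := fun q hq => hwB (by
    have := mul_mem (mul_mem (inv_mem ((q.1 : B)).2) hq) (inv_mem q.2.2)
    simpa [φ, mul_assoc] using this)
  have hφi : Function.Injective φ := by
    rintro ⟨u, c⟩ ⟨u', c'⟩ (h : ((u : B) : G) * w * c = ((u' : B) : G) * w * c')
    have h1 : w⁻¹ * (((u'⁻¹ * u : π.ker) : B) : G) * w = c' * (c : G)⁻¹ := by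
      simp only [Subgroup.coe_mul, InvMemClass.coe_inv]
      calc w⁻¹ * (((u' : B) : G)⁻¹ * ((u : B) : G)) * w
          = w⁻¹ * ((u' : B) : G)⁻¹ * (((u : B) : G) * w * c) * (c : G)⁻¹ := by group
        _ = c' * (c : G)⁻¹ := by rw [h]; group
    obtain ⟨i, hi⟩ := htpow _ (hT _ ((u'⁻¹ * u : π.ker) : B).2
      (h1 ▸ mul_mem c'.2 (inv_mem c.2)))
    have h2 : (i.val : ZMod 8) = 0 := by
      rw [← hπt i.val, show (⟨t ^ i.val, pow_mem ht _⟩ : B) = ((u'⁻¹ * u : π.ker) : B) from
        Subtype.ext hi, MonoidHom.mem_ker.1 (u'⁻¹ * u).2, toAdd_one]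
    rw [ZMod.natCast_zmod_val] at h2
    have h3 : u = u' := by
      have : u'⁻¹ * u = 1 := Subtype.ext (Subtype.ext (by rw [← hi, h2]; simp))
      exact (inv_mul_eq_one.1 this).symm
    subst h3
    exact Prod.ext rfl (Subtype.ext (mul_left_cancel h))
  have hcompl : (Finset.univ.filter fun x : G => x ∉ B) = Finset.univ.image φ := by
    symm
    refine Finset.eq_of_subset_of_card_le (fun x hx => ?_) ?_
    · obtain ⟨q, -, rfl⟩ := Finset.mem_image.1 hx
      simp [hφn q]
    · rw [Finset.card_image_of_injective _ hφi, Finset.card_univ, ← Nat.card_eq_fintype_card,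
        Nat.card_prod, hU, hB]
      have := Finset.card_filter_add_card_filter_not (s := (Finset.univ : Finset G)) (fun x => x ∈ B)
      rw [Finset.card_univ, ← Nat.card_eq_fintype_card, hG,
        show (Finset.univ.filter fun x : G => x ∈ B).card = 216 by
          rw [← hB, Nat.card_eq_fintype_card, Fintype.card_subtype]] at this
      omega
  -- the inner sums
  let f : G → ℂ := fun x =>
    ∑ b : B, lam B π k b * conj (extendByZero B (lam B π l) (x⁻¹ * (b : G) * x))
  have hin : ∀ x ∈ B, f x = if k = l then 216 else 0 := fun x hx => by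
    have e : ∀ b : B, lam B π k b * conj (extendByZero B (lam B π l) (x⁻¹ * (b : G) * x)) =
        psi ((k - l) * Multiplicative.toAdd (π b)) := fun b => by
      rw [extendByZero_conj B π l hx, CfsgLib.Frobenius.extendByZero_coe]
      simp only [lam]
      rw [psi_conj, ← psi_add]
      ring_nf
    simp only [f, e]
    rw [sum_psiHom π ⟨t, ht⟩ hπ, hB]
    simp [sub_eq_zero]
  have hout : ∀ q, f (φ q) = if k = 5 * l then 8 else 0 := by
    rintro ⟨u, c⟩
    have e1 : f (φ (u, c)) =
        ∑ b : B, lam B π k b * conj (extendByZero B (lam B π l) (w⁻¹ * (b : G) * w)) := by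
      refine Fintype.sum_equiv (MulAut.conj ((u : B))⁻¹).toEquiv _ _ fun b => ?_
      simp only [φ, MulEquiv.toEquiv_eq_coe, MulEquiv.coe_toEquiv, MulAut.conj_apply]
      rw [inv_inv, lam_conj, show (((u : B) : G) * w * (c : G))⁻¹ * (b : G) * (((u : B) : G) * w * c) =
        (c : G)⁻¹ * (w⁻¹ * ((((u : B))⁻¹ * b * (u : B) : B) : G) * w) * c by
          simp only [Subgroup.coe_mul, InvMemClass.coe_inv]; group, extendByZero_conj B π l c.2]
    rw [e1]
    let τ : ZMod 8 → B := fun i => ⟨t ^ i.val, pow_mem ht _⟩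
    have hτ : Function.Injective τ := fun i j h => by
      rw [← ZMod.natCast_zmod_val i, ← ZMod.natCast_zmod_val j, ← hπt, ← hπt]
      exact congrArg (fun b => Multiplicative.toAdd (π b)) h
    rw [← Finset.sum_subset (Finset.subset_univ (Finset.univ.image τ)) fun b _ hb => ?_]
    · rw [Finset.sum_image fun i _ j _ h => hτ h]
      have e : ∀ i : ZMod 8, lam B π k (τ i) * conj (extendByZero B (lam B π l)
          (w⁻¹ * ((τ i : B) : G) * w)) = psi ((k - 5 * l) * i) := fun i => by
        rw [show w⁻¹ * ((τ i : B) : G) * w = ((⟨t ^ (5 * i.val), pow_mem ht _⟩ : B) : G) from hwi _,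
          CfsgLib.Frobenius.extendByZero_coe]
        simp only [lam, τ]
        rw [hπt, hπt, psi_conj, ← psi_add, Nat.cast_mul, ZMod.natCast_zmod_val]
        congr 1
        push_cast
        ring
      simp only [e, sum_psi, sub_eq_zero]
    · rw [CfsgLib.Frobenius.extendByZero_of_not_mem B _ fun h => hb ?_, map_zero, mul_zero]
      obtain ⟨i, hi⟩ := htpow _ (hT b b.2 h)
      exact Finset.mem_image.2 ⟨i, Finset.mem_univ _, Subtype.ext hi⟩
  simp only [classInner, indFun, map_mul, map_inv₀, map_natCast, map_sum, Finset.mul_sum,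
    ← mul_assoc]
  rw [Finset.sum_comm]
  have hsum : ∑ x : G, f x = (if k = l then 216 else 0) * 216 + (if k = 5 * l then 8 else 0) * 5832 := by
    rw [← Finset.sum_filter_add_sum_filter_not Finset.univ (fun x => x ∈ B)]
    congr 1
    · rw [Finset.sum_congr rfl fun x hx => hin x (Finset.mem_filter.1 hx).2, Finset.sum_const,
        show (Finset.univ.filter fun x : G => x ∈ B).card = 216 by
          rw [← hB, Nat.card_eq_fintype_card, Fintype.card_subtype], nsmul_eq_mul]
      push_cast; ring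
    · rw [hcompl, Finset.sum_image fun i _ j _ h => hφi h,
        Finset.sum_congr rfl fun q _ => hout q, Finset.sum_const, Finset.card_univ,
        ← Nat.card_eq_fintype_card, Nat.card_prod, hU, hB, nsmul_eq_mul]
      push_cast; ring
  have hr : ∀ x : G, ∑ b : B, (Nat.card B : ℂ)⁻¹ * lam B π k b * (Nat.card B : ℂ)⁻¹ *
      conj (extendByZero B (lam B π l) (x⁻¹ * (b : G) * x)) = (216 * 216 : ℂ)⁻¹ * f x := fun x => by
    rw [hB, Finset.mul_sum]
    exact Finset.sum_congr rfl fun b _ => by push_cast; ring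
  rw [Finset.sum_congr rfl fun x _ => hr x, ← Finset.mul_sum, hsum]
  split_ifs <;> norm_num

/-- The degrees. -/
theorem exists_degrees [Finite G] [IsSimpleGroup G] (hnc : commutator G = ⊤) (B : Subgroup G)
    (π : B →* Multiplicative (ZMod 8)) {t w z : G} (ht : t ∈ B)
    (hπ : π ⟨t, ht⟩ = Multiplicative.ofAdd 1) (hG : Nat.card G = 6048) (hB : Nat.card B = 216)
    (hT : ∀ b ∈ B, w⁻¹ * b * w ∈ B → b ∈ Subgroup.zpowers t) (ht8 : orderOf t = 8)
    (hw : w⁻¹ * t * w = t ^ 5) (hz3 : orderOf z = 3)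
    (hzU : ∃ x y : π.ker, ((⁅x, y⁆ : π.ker) : B) = (z : G))
    (hzinv : IsConj z z⁻¹)
    (hU : ∀ u v : π.ker, ((u : B) : G) ∉ Subgroup.zpowers z → ((v : B) : G) ∉ Subgroup.zpowers z →
      IsConj ((u : B) : G) ((v : B) : G)) :
    (∃ d ∈ charDegrees G, 21 ∣ d) ∧ (∃ d ∈ charDegrees G, 14 ∣ d) ∧ ∃ d ∈ charDegrees G, 6 ∣ d := by
  classical
  haveI := Fintype.ofFinite G
  haveI := Fintype.ofFinite (IrrCharacter G)
  have hN := classInner_series B π ht hπ hG hB hT ht8 hw
  have hex := fun k χ => IsCharacter.exists_classInner_eq_nat (isCharacter_series B π k) χ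
  choose M hM using hex
  have hdec : ∀ k, series B π k = ∑ χ : IrrCharacter G, (M k χ : ℂ) • (χ : G → ℂ) := fun k => by
    refine (eq_sum_classInner (CfsgLib.Frobenius.indFun_isClassFunction B _)).trans ?_
    exact Finset.sum_congr rfl fun χ _ => by rw [← hM]; rfl
  have hMM : ∀ k l, ∑ χ, M k χ * M l χ = (if k = l then 1 else 0) + (if k = 5 * l then 1 else 0) := by
    intro k l
    have h := hN k l
    rw [hdec k, hdec l] at h
    have h' := classInner_generalized_sum (G := G) (fun χ => (M k χ : ℤ)) (fun χ => (M l χ : ℤ))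
    push_cast at h'
    rw [h'] at h
    have h'' : ((∑ χ, M k χ * M l χ : ℕ) : ℂ) =
        (((if k = l then 1 else 0) + (if k = 5 * l then 1 else 0) : ℕ) : ℂ) := by
      push_cast
      exact h
    exact_mod_cast h''
  -- degrees
  have hdeg : ∀ χ : IrrCharacter G, ∃ d : ℕ, 0 < d ∧ (χ : G → ℂ) 1 = d := fun χ =>
    exists_degree_of_isIrr χ.2
  choose D hDpos hD using hdeg
  have hDmem : ∀ χ, D χ ∈ charDegrees G := fun χ =>
    ⟨χ, CfsgLib.ZerosCodegree.charDegree_eq (hD χ)⟩
  have hDdvd : ∀ χ, D χ ∣ 6048 := fun χ => by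
    rw [← hG, ← CfsgLib.ZerosCodegree.charDegree_eq (hD χ)]
    exact CfsgLib.ZerosCodegree.charDegree_dvd_card χ
  have hMD : ∀ k, ∑ χ, M k χ * D χ = 28 := fun k => by
    have h := congrFun (hdec k) 1
    rw [series, CfsgLib.Frobenius.indFun_one] at h
    simp only [lam, map_one, toAdd_one, mul_zero, psi_zero, mul_one, Finset.sum_apply,
      Pi.smul_apply, smul_eq_mul, hD] at h
    have hidx : B.index = 28 := by
      have := Subgroup.card_mul_index B
      rw [hB, hG] at this
      omega
    rw [hidx] at h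
    exact_mod_cast h.symm
  have hsq : ∑ χ, D χ * D χ = 6048 := by
    have h := sum_degree_sq (G := G)
    simp only [hD, hG, sq] at h
    exact_mod_cast h
  -- the trivial character
  let one : IrrCharacter G := ⟨fun _ => 1, by simpa using isIrrCharacter_linear (1 : G →* ℂˣ)⟩
  have hlin : ∀ χ, D χ = 1 → χ = one := fun χ h1 => by
    obtain ⟨μ, hμ⟩ := exists_hom_of_degree_one χ.2 (by rw [hD, h1, Nat.cast_one])
    have : commutator G ≤ μ.ker := by
      rw [commutator_def, Subgroup.commutator_le]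
      intro a _ b _
      rw [MonoidHom.mem_ker, map_commutatorElement, commutatorElement_eq_one_iff_mul_comm]
      exact mul_comm _ _
    refine Subtype.ext (hμ.trans (funext fun g => ?_))
    have : g ∈ μ.ker := this (hnc ▸ Subgroup.mem_top g)
    show (μ g : ℂ) = 1
    rw [MonoidHom.mem_ker.1 this, Units.val_one]
  have hMone : ∀ k, M k one = if k = 0 then 1 else 0 := fun k => by
    have h := hM k one
    rw [series, CfsgLib.Frobenius.classInner_indFun B _ _ (IsIrrCharacter.isClassFunction one.2)] at h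
    simp only [classInner, lam, one, map_one, mul_one] at h
    rw [sum_psiHom π ⟨t, ht⟩ hπ, hB] at h
    split_ifs at h ⊢ <;> norm_num at h <;> exact_mod_cast h.symm
  -- restriction to the unipotent radical
  let U : Subgroup G := π.ker.map B.subtype
  have hUcard : Nat.card π.ker = 27 := by
    have hπs : Function.Surjective π := fun a => by
      refine ⟨⟨t, ht⟩ ^ (Multiplicative.toAdd a).val, ?_⟩
      rw [map_pow, hπ, ← ofAdd_nsmul, nsmul_one, ZMod.natCast_zmod_val, ofAdd_toAdd]
    have h := Subgroup.card_mul_index π.ker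
    rw [Subgroup.index_ker, MonoidHom.range_eq_top.2 hπs, Subgroup.card_top,
      Nat.card_congr Multiplicative.toAdd, Nat.card_zmod, hB] at h
    omega
  obtain ⟨x₀, y₀, hxy⟩ := hzU
  set ζ : π.ker := ⁅x₀, y₀⁆ with hζ
  have hζG : ((ζ : B) : G) = z := hxy
  have hζ3 : orderOf ζ = 3 := by rw [← Subgroup.orderOf_coe, ← Subgroup.orderOf_coe, hζG, hz3]
  set Z : Subgroup π.ker := Subgroup.zpowers ζ with hZ
  have hZG : ∀ u : π.ker, u ∈ Z ↔ ((u : B) : G) ∈ Subgroup.zpowers z := fun u => by
    constructor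
    · rintro ⟨n, rfl⟩
      exact ⟨n, by simp [hζG]⟩
    · rintro ⟨n, hn⟩
      exact ⟨n, Subtype.ext (Subtype.ext (by simpa [hζG] using hn))⟩
  have hZcard : Nat.card Z = 3 := by rw [hZ, Nat.card_zpowers, hζ3]
  obtain ⟨u₁, hu₁⟩ : ∃ u, u ∉ Z := by
    by_contra h
    push Not at h
    have := Nat.card_le_card_of_injective (fun u : π.ker => (⟨u, h u⟩ : Z))
      fun a b e => congrArg Subtype.val e
    omega
  -- a linear character trivial on `Z`
  haveI : Fact (Nat.Prime 3) := ⟨Nat.prime_three⟩
  have hUp : IsPGroup 3 π.ker := IsPGroup.of_card (n := 3) (by rw [hUcard]; norm_num)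
  obtain ⟨μ, hμZ, hμ1⟩ : ∃ μ : π.ker →* ℂˣ, (∀ u ∈ Z, μ u = 1) ∧ μ ≠ 1 := by
    haveI : Nontrivial π.ker := Finite.one_lt_card_iff_nontrivial.1 (by omega)
    haveI : Group.IsNilpotent π.ker := IsPGroup.isNilpotent hUp
    have hlt := Group.IsSolvable.commutator_lt_top_of_nontrivial π.ker
    obtain ⟨u, -, hu⟩ := SetLike.exists_of_lt hlt
    have hu' : (Abelianization.of u : Abelianization π.ker) ≠ 1 := fun h => hu ((QuotientGroup.eq_one_iff u).1 h)
    haveI : NeZero (Monoid.exponent (Abelianization π.ker) : ℂ) :=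
      ⟨Nat.cast_ne_zero.2 Monoid.exponent_ne_zero_of_finite⟩
    obtain ⟨ν, hν⟩ := CommGroup.exists_apply_ne_one_of_hasEnoughRootsOfUnity
      (Abelianization π.ker) ℂ hu'
    refine ⟨ν.comp Abelianization.of, ?_, fun h => hν (DFunLike.congr_fun h u)⟩
    rintro _ ⟨n, rfl⟩
    rw [MonoidHom.comp_apply, map_zpow, map_zpow, hζ, map_commutatorElement, map_commutatorElement,
      commutatorElement_eq_one_iff_mul_comm.2 (mul_comm _ _), one_zpow]
  -- a subgroup of order 9 over `Z`
  obtain ⟨A, hAcard, hZA⟩ : ∃ A : Subgroup π.ker, Nat.card A = 3 ^ 2 ∧ Z ≤ A := by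
    obtain ⟨A, h1, h2⟩ := Sylow.exists_subgroup_card_pow_succ (p := 3) (n := 1)
      (by rw [hUcard]; norm_num) (H := Z) (by rw [hZcard]; norm_num)
    exact ⟨A, h1, h2⟩
  have hAcomm : ∀ a b : A, a * b = b * a := fun a b =>
    (IsPGroup.isMulCommutative_of_card_eq_prime_sq hAcard).is_comm.comm a b
  obtain ⟨ν, hν⟩ : ∃ ν : A →* ℂˣ, ν ⟨ζ, hZA (Subgroup.mem_zpowers ζ)⟩ ≠ 1 := by
    letI : CommGroup A := { mul_comm := hAcomm }
    haveI : NeZero (Monoid.exponent A : ℂ) := ⟨Nat.cast_ne_zero.2 Monoid.exponent_ne_zero_of_finite⟩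
    refine CommGroup.exists_apply_ne_one_of_hasEnoughRootsOfUnity A ℂ fun h => ?_
    have : orderOf ζ = 1 := orderOf_eq_one_iff.2 (congrArg Subtype.val h)
    omega
  -- the numerical invariants of a character on `U`
  have hres : ∀ χ : IrrCharacter G, ∃ m a b : ℕ,
      (m : ℂ) = ∑ k, (M k χ : ℂ) ∧ D χ = m + 8 * a + 6 * b ∧ (b = 0 → χ = one) := by
    intro χ
    set v := (χ : G → ℂ) z with hv
    set c := (χ : G → ℂ) ((u₁ : B) : G) with hc
    have hcl : ∀ {x y : G}, IsConj x y → (χ : G → ℂ) x = (χ : G → ℂ) y := fun h =>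
      irr_apply_eq_of_isConj h χ
    have hval : ∀ u : π.ker, (χ : G → ℂ) ((u : B) : G) =
        c + (if u ∈ Z then v - c else 0) + (if u = 1 then (D χ : ℂ) - v else 0) := by
      intro u
      by_cases h1 : u = 1
      · subst h1
        simp [Subgroup.one_mem, hD]
      by_cases hu : u ∈ Z
      · simp only [hu, h1, if_true, if_false, add_zero, add_sub_cancel]
        obtain ⟨n, hn⟩ := (hZG u).1 hu
        have hn' : z ^ (n % 3) = ((u : B) : G) := by
          rw [← hn]
          have := zpow_mod_orderOf z n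
          rw [hz3] at this
          exact_mod_cast this
        rw [← hn']
        have h03 : n % 3 = 0 ∨ n % 3 = 1 ∨ n % 3 = 2 := by omega
        rcases h03 with e | e | e <;> rw [e] at hn' ⊢
        · exact absurd (Subtype.ext (Subtype.ext (by simpa using hn'.symm))) h1
        · rw [zpow_one]
        · rw [show z ^ (2 : ℤ) = z⁻¹ by
            rw [eq_inv_iff_mul_eq_one, ← zpow_add_one, show (2 : ℤ) + 1 = ((3 : ℕ) : ℤ) from rfl,
              zpow_natCast, ← hz3, pow_orderOf_eq_one]]
          exact (hcl hzinv).symm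
      · simp only [hu, h1, if_false, add_zero]
        exact hcl (hU u u₁ (fun h => hu ((hZG u).2 h)) fun h => hu₁ ((hZG u₁).2 h))
    have hsum : ∀ g : π.ker → ℂ, ∑ u : π.ker, (χ : G → ℂ) ((u : B) : G) * g u =
        c * ∑ u, g u + (v - c) * ∑ u ∈ Finset.univ.filter (· ∈ Z), g u +
          ((D χ : ℂ) - v) * g 1 := by
      intro g
      simp only [hval, add_mul, Finset.sum_add_distrib, ite_mul, zero_mul, Finset.sum_ite_eq',
        Finset.mem_univ, if_true, ← Finset.mul_sum, ← Finset.sum_filter]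
    have hchar : IsCharacter π.ker fun u : π.ker => (χ : G → ℂ) ((u : B) : G) :=
      CfsgLib.Coherence.isCharacter_comp (IsIrrCharacter.isCharacter χ.2)
        (B.subtype.comp π.ker.subtype)
    have hZf : ((Finset.univ : Finset π.ker).filter (· ∈ Z)).card = 3 := by
      rw [← hZcard, Nat.card_eq_fintype_card, Fintype.card_subtype]
    -- trivial character
    obtain ⟨m, hm⟩ := IsCharacter.exists_classInner_eq_nat hchar
      ⟨_, isIrrCharacter_linear (1 : π.ker →* ℂˣ)⟩
    simp only [classInner, MonoidHom.one_apply, Units.val_one, map_one] at hm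
    rw [hsum, hUcard, Finset.sum_const, Finset.sum_const, Finset.card_univ, hZf,
      ← Nat.card_eq_fintype_card, hUcard] at hm
    -- a character trivial on `Z`
    obtain ⟨a, ha⟩ := IsCharacter.exists_classInner_eq_nat hchar ⟨_, isIrrCharacter_linear μ⟩
    simp only [classInner] at ha
    have hμs : ∑ u : π.ker, conj (μ u : ℂ) = 0 := by
      rw [← map_sum, show ∑ u : π.ker, (μ u : ℂ) = 0 from
        sum_hom_units_eq_zero ((Units.coeHom ℂ).comp μ) fun h => hμ1
          (MonoidHom.ext fun u => Units.ext (DFunLike.congr_fun h u)), map_zero]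
    rw [hsum, hUcard, hμs, Finset.sum_congr rfl fun u hu => by
      rw [hμZ u (Finset.mem_filter.1 hu).2, Units.val_one, map_one], Finset.sum_const, hZf] at ha
    simp only [map_one, Units.val_one] at ha
    -- a character of the subgroup of order nine
    obtain ⟨b, hb⟩ := IsCharacter.exists_classInner_eq_nat
      (CfsgLib.Coherence.isCharacter_comp hchar A.subtype) ⟨_, isIrrCharacter_linear ν⟩
    simp only [classInner, hAcard] at hb
    have hνs : ∑ x : A, conj (ν x : ℂ) = 0 := by
      rw [← map_sum, show ∑ x : A, (ν x : ℂ) = 0 from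
        sum_hom_units_eq_zero ((Units.coeHom ℂ).comp ν) fun h => hν
          (Units.ext (by simpa using DFunLike.congr_fun h ⟨ζ, hZA (Subgroup.mem_zpowers ζ)⟩)), map_zero]
    have hνZ : ∑ x ∈ Finset.univ.filter (fun x : A => (x : π.ker) ∈ Z), conj (ν x : ℂ) = 0 := by
      rw [Finset.sum_subtype (p := fun x : A => x ∈ Z.subgroupOf A) _
        (fun x => by simp [Subgroup.mem_subgroupOf]) (fun x => conj (ν x : ℂ)), ← map_sum,
        show ∑ x : Z.subgroupOf A, (ν x : ℂ) = 0 from
          sum_hom_units_eq_zero ((Units.coeHom ℂ).comp (ν.comp (Z.subgroupOf A).subtype)) fun h => hν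
            (Units.ext (by simpa using DFunLike.congr_fun h ⟨⟨ζ, hZA (Subgroup.mem_zpowers ζ)⟩,
              Subgroup.mem_subgroupOf.2 (Subgroup.mem_zpowers ζ)⟩)), map_zero]
    have hsumA : ∑ x : A, (χ : G → ℂ) (((x : π.ker) : B) : G) * conj (ν x : ℂ) =
        ((D χ : ℂ) - v) := by
      simp only [hval, add_mul, Finset.sum_add_distrib, ite_mul, zero_mul, ← Finset.mul_sum,
        ← Finset.sum_filter, hνs, hνZ, mul_zero, zero_add]
      rw [Finset.sum_eq_single (⟨1, one_mem A⟩ : A) (fun x hx hne => absurd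
        (Subtype.ext (Finset.mem_filter.1 hx).2) hne) (fun h => absurd (by simp) h)]
      rw [show (⟨1, one_mem A⟩ : A) = 1 from rfl, map_one, Units.val_one, map_one, mul_one]
    simp only [Subgroup.subtype_apply] at hb
    rw [hsumA] at hb
    refine ⟨m, a, b, ?_, ?_, fun hb0 => ?_⟩
    · have e : ∑ k, (M k χ : ℂ) = ∑ k, classInner (series B π k) (χ : G → ℂ) := by
        simp only [hM]
      rw [e]
      simp only [series, CfsgLib.Frobenius.classInner_indFun B _ _ (IsIrrCharacter.isClassFunction χ.2)]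
      simp only [classInner, lam]
      rw [← Finset.mul_sum, Finset.sum_comm]
      have e2 : ∀ x : B, ∑ k : ZMod 8, psi (k * Multiplicative.toAdd (π x)) * conj ((χ : G → ℂ) x) =
          if x ∈ π.ker then 8 * conj ((χ : G → ℂ) x) else 0 := fun x => by
        rw [← Finset.sum_mul]
        rw [Finset.sum_congr rfl (g := fun k : ZMod 8 => psi (Multiplicative.toAdd (π x) * k)) fun k _ => by rw [mul_comm]]
        rw [sum_psi]
        simp [MonoidHom.mem_ker]

      simp only [e2, ← Finset.sum_filter]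
      rw [Finset.sum_subtype (p := fun x : B => x ∈ π.ker) _ (fun x => by simp)
        (fun x => 8 * conj ((χ : G → ℂ) x)), ← Finset.mul_sum, ← map_sum]
      have h1 := congrArg conj hm
      rw [map_natCast] at h1
      have h2 : ∑ u : π.ker, (χ : G → ℂ) ((u : B) : G) =
          c * 27 + (v - c) * 3 + ((D χ : ℂ) - v) := by
        have := hsum fun _ => 1
        simp only [mul_one, Finset.sum_const, Finset.card_univ, hZf, ← Nat.card_eq_fintype_card,
          hUcard, nsmul_eq_mul] at this
        push_cast at this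
        exact this
      rw [h2, hB, ← h1]
      simp only [map_mul, map_inv₀, map_natCast, map_add, map_sub, nsmul_eq_mul, map_ofNat,
        map_one, mul_one]
      push_cast
      ring
    · have key : (D χ : ℂ) = m + 8 * a + 6 * b := by
        rw [← hm, ← ha, ← hb]
        push_cast
        ring
      exact_mod_cast key
    · have hvd : (χ : G → ℂ) z = (χ : G → ℂ) 1 := by
        rw [hb0, Nat.cast_zero] at hb
        rw [hD, ← hv]
        have : ((3 ^ 2 : ℕ) : ℂ)⁻¹ ≠ 0 := inv_ne_zero (by norm_num)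
        exact (sub_eq_zero.1 ((mul_eq_zero.1 hb).resolve_left this)).symm
      obtain ⟨K, hKn, hK, hKc⟩ := exists_kernel (IsIrrCharacter.isCharacter χ.2)
      rcases hKn.eq_bot_or_eq_top with h | h
      · exfalso
        have : z ∈ K := (hK z).2 hvd
        rw [h, Subgroup.mem_bot] at this
        rw [this, orderOf_one] at hz3
        omega
      · refine hlin χ ?_
        have hconst : ∀ g, (χ : G → ℂ) g = (χ : G → ℂ) 1 := fun g => (hK g).1 (h ▸ Subgroup.mem_top g)
        have h1 := classInner_self_of_isIrr χ.2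
        simp only [classInner, hconst, hD, map_natCast, Finset.sum_const, Finset.card_univ,
          nsmul_eq_mul, ← Nat.card_eq_fintype_card] at h1
        rw [← mul_assoc, inv_mul_cancel₀ (Nat.cast_ne_zero.2 Nat.card_pos.ne'), one_mul] at h1
        have h2 : D χ * D χ = 1 := by exact_mod_cast h1
        exact Nat.eq_one_of_mul_eq_one_right h2
  choose m a b hm hDmab hb0 using hres
  have hm' : ∀ χ, m χ = ∑ k, M k χ := fun χ => by exact_mod_cast hm χ
  -- the split series
  have hsplit : ∀ k : ZMod 8, k = 2 ∨ k = 4 ∨ k = 6 →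
      (∑ χ, M k χ * (D χ * D χ) = 490) ∧ ∃ χ, D χ = 21 := by
    intro k hk
    obtain ⟨p, q, hpq, hp, hq, hrest⟩ := exists_pair_of_norm_two (M k) (by
      rw [hMM]; rcases hk with rfl | rfl | rfl <;> decide)
    have hs : ∀ f : IrrCharacter G → ℕ, ∑ χ, M k χ * f χ = f p + f q := fun f => by
      rw [← Finset.sum_subset (Finset.subset_univ {p, q}) fun χ _ hχ => ?_, Finset.sum_pair hpq,
        hp, hq, one_mul, one_mul]
      simp only [Finset.mem_insert, Finset.mem_singleton, not_or] at hχ
      rw [hrest χ hχ.1 hχ.2, zero_mul]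
    have hsum28 := hMD k
    rw [hs] at hsum28
    have hodd : ∀ χ, M k χ = 1 → m χ = 1 ∧ D χ ≠ 1 := fun χ hχ => by
      constructor
      · rw [hm', ← hχ]
        refine Finset.sum_eq_single k (fun l _ hl => ?_) (by simp)
        have h0 := hMM k l
        rw [if_neg (Ne.symm hl), if_neg (zmod_eight_fixed k l hk hl)] at h0
        have := Finset.sum_eq_zero_iff.1 h0 χ (Finset.mem_univ _)
        rw [hχ, one_mul] at this
        exact this
      · intro h1
        have := hMone k
        rw [← hlin χ h1, hχ, if_neg (by rcases hk with rfl | rfl | rfl <;> decide)] at this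
        omega
    obtain ⟨hmp, hp1⟩ := hodd p hp
    obtain ⟨hmq, hq1⟩ := hodd q hq
    have e1 := hDmab p
    have e2 := hDmab q
    have d1 := hDdvd p
    have d2 := hDdvd q
    have hcase : (D p = 7 ∧ D q = 21) ∨ (D p = 21 ∧ D q = 7) := by
      have hle : D p ≤ 28 := by omega
      interval_cases hval : D p <;> first
        | omega
        | (exfalso; revert d1; decide)
        | (obtain rfl : _ = D q := (show 28 - D p = D q by omega); exfalso; revert d2; norm_num [hval])
        | (exfalso; rw [show D q = 28 - D p by omega, hval] at d2; revert d2; decide)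
    rw [hs]
    rcases hcase with ⟨h1, h2⟩ | ⟨h1, h2⟩
    · exact ⟨by rw [h1, h2], q, h2⟩
    · exact ⟨by rw [h1, h2], p, h1⟩
  -- the irreducible series
  have hirr : ∀ k : ZMod 8, k = 1 ∨ k = 3 →
      (∑ χ, M k χ * (D χ * D χ) = 784) ∧ ∃ χ, D χ = 28 := by
    intro k hk
    have h1 : ∑ χ, M k χ * M k χ = 1 := by
      rw [hMM]; rcases hk with rfl | rfl <;> decide
    obtain ⟨p, hp⟩ : ∃ p, M k p ≠ 0 := by
      by_contra h
      push Not at h
      simp [h] at h1
    have hrest : ∀ χ, χ ≠ p → M k χ = 0 := fun χ hne => by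
      by_contra h0
      have := Finset.sum_le_sum_of_subset (f := fun χ => M k χ * M k χ)
        (Finset.subset_univ ({p, χ} : Finset (IrrCharacter G)))
      rw [Finset.sum_pair (Ne.symm hne), h1] at this
      have a1 := Nat.mul_pos (Nat.pos_of_ne_zero hp) (Nat.pos_of_ne_zero hp)
      have a2 := Nat.mul_pos (Nat.pos_of_ne_zero h0) (Nat.pos_of_ne_zero h0)
      omega
    have hs : ∀ f : IrrCharacter G → ℕ, ∑ χ, M k χ * f χ = M k p * f p := fun f =>
      Finset.sum_eq_single p (fun χ _ h => by rw [hrest χ h, zero_mul]) (by simp)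
    have hp1 : M k p = 1 := by
      rw [hs] at h1; exact Nat.eq_one_of_mul_eq_one_right h1
    have := hMD k
    rw [hs, hp1, one_mul] at this
    exact ⟨by rw [hs, hp1, this], p, this⟩
  have hzero : ∑ χ, M 0 χ * (D χ * D χ) = 730 := by
    obtain ⟨p, q, hpq, hp, hq, hrest⟩ := exists_pair_of_norm_two (M 0) (by rw [hMM]; decide)
    have hs : ∀ f : IrrCharacter G → ℕ, ∑ χ, M 0 χ * f χ = f p + f q := fun f => by
      rw [← Finset.sum_subset (Finset.subset_univ {p, q}) fun χ _ hχ => ?_, Finset.sum_pair hpq,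
        hp, hq, one_mul, one_mul]
      simp only [Finset.mem_insert, Finset.mem_singleton, not_or] at hχ
      rw [hrest χ hχ.1 hχ.2, zero_mul]
    have h28 := hMD 0
    rw [hs] at h28 ⊢
    have hone : one = p ∨ one = q := by
      by_contra h
      rw [not_or] at h
      have := hrest one h.1 h.2
      rw [hMone, if_pos rfl] at this
      omega
    have hD1 : D one = 1 := by
      have h1 : (1 : ℂ) = (D one : ℂ) := hD one
      exact_mod_cast h1.symm
    rcases hone with rfl | rfl
    · rw [hD1] at h28 ⊢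
      rw [show D q = 27 by omega]
    · rw [hD1] at h28 ⊢
      rw [show D p = 27 by omega]
  obtain ⟨-, χ₂₁, h21⟩ := hsplit 2 (Or.inl rfl)
  obtain ⟨-, χ₂₈, h28⟩ := hirr 1 (Or.inl rfl)
  refine ⟨⟨21, h21 ▸ hDmem _, dvd_rfl⟩, ⟨28, h28 ▸ hDmem _, by norm_num⟩, ?_⟩
  by_contra hno
  push Not at hno
  let K : Finset (ZMod 8) := {0, 1, 2, 3, 4, 6}
  have hpart : ∀ χ, m χ ≠ 0 → ∑ k ∈ K, M k χ = 1 := by
    intro χ hχ
    rw [hm'] at hχ
    obtain ⟨k, -, hk⟩ := Finset.exists_ne_zero_of_sum_ne_zero hχ
    have hswap : ∀ i j : ZMod 8, i = 5 * j → i ≠ j → 5 * i ≠ i → M i χ = M j χ := by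
      intro i j hij hne h5
      have hii := hMM i i
      have hjj := hMM j j
      have hij' := hMM i j
      rw [if_pos rfl, if_neg (Ne.symm h5)] at hii
      rw [if_pos rfl, if_neg (by rintro e; exact hne (by rw [hij, ← e]))] at hjj
      rw [if_neg hne, if_pos hij] at hij'
      have h0 : ∑ ψ, ((M i ψ : ℤ) - M j ψ) * ((M i ψ : ℤ) - M j ψ) = 0 := by
        have hii' : ∑ ψ, ((M i ψ : ℤ) * M i ψ) = 1 := by exact_mod_cast hii
        have hjj' : ∑ ψ, ((M j ψ : ℤ) * M j ψ) = 1 := by exact_mod_cast hjj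
        have hij'' : ∑ ψ, ((M i ψ : ℤ) * M j ψ) = 1 := by exact_mod_cast hij'
        simp only [sub_mul, mul_sub, Finset.sum_sub_distrib, mul_comm ((M j _ : ℤ)) (M i _ : ℤ),
          hii', hjj', hij'']
        norm_num
      have := (Finset.sum_eq_zero_iff_of_nonneg fun ψ _ => mul_self_nonneg _).1 h0 χ (Finset.mem_univ _)
      have := mul_self_eq_zero.1 this
      omega
    obtain ⟨k, hkK, hk⟩ : ∃ k ∈ K, M k χ ≠ 0 := by
      by_cases h : k ∈ K
      · exact ⟨k, h, hk⟩
      · have h57 : k = 5 ∨ k = 7 := zmod_eight_reps k h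
        rcases h57 with rfl | rfl
        · exact ⟨1, by decide, by rwa [← hswap 5 1 (by decide) (by decide) (by decide)]⟩
        · exact ⟨3, by decide, by rwa [← hswap 7 3 (by decide) (by decide) (by decide)]⟩
    have h2 : M k χ * M k χ ≤ 2 := by
      refine (Finset.single_le_sum (f := fun ψ => M k ψ * M k ψ) (fun _ _ => Nat.zero_le _)
        (Finset.mem_univ χ)).trans ?_
      rw [hMM]
      split_ifs <;> norm_num
    have h1 : M k χ = 1 := by
      by_contra hne
      have : 2 * 2 ≤ M k χ * M k χ := Nat.mul_le_mul (by omega) (by omega)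
      omega
    rw [← h1]
    refine Finset.sum_eq_single k (fun l hl hne => ?_) fun h => absurd hkK h
    have h0 := hMM k l
    rw [if_neg (Ne.symm hne), if_neg (zmod_eight_disjoint k hkK l hl hne)] at h0
    have := Finset.sum_eq_zero_iff.1 h0 χ (Finset.mem_univ _)
    rw [h1, one_mul] at this
    exact this
  have hsplitsum : ∑ χ, D χ * D χ = (∑ k ∈ K, ∑ χ, M k χ * (D χ * D χ)) +
      ∑ χ ∈ Finset.univ.filter (fun χ => m χ = 0), D χ * D χ := by
    rw [Finset.sum_comm, Finset.sum_filter, ← Finset.sum_add_distrib]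
    refine Finset.sum_congr rfl fun χ _ => ?_
    by_cases h : m χ = 0
    · have hz : ∀ k, M k χ = 0 := fun k =>
        Finset.sum_eq_zero_iff.1 ((hm' χ).symm.trans h) k (Finset.mem_univ _)
      simp [h, hz]
    · rw [← Finset.sum_mul, hpart χ h, if_neg h, one_mul, add_zero]
  have hK : ∑ k ∈ K, ∑ χ, M k χ * (D χ * D χ) = 3768 := by
    simp only [K]
    rw [Finset.sum_insert (by decide), Finset.sum_insert (by decide), Finset.sum_insert (by decide),
      Finset.sum_insert (by decide), Finset.sum_insert (by decide), Finset.sum_singleton, hzero,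
      (hirr 1 (Or.inl rfl)).1, (hirr 3 (Or.inr rfl)).1, (hsplit 2 (Or.inl rfl)).1,
      (hsplit 4 (Or.inr (Or.inl rfl))).1, (hsplit 6 (Or.inr (Or.inr rfl))).1]
    try norm_num
  rw [hsq, hK] at hsplitsum
  set R := Finset.univ.filter (fun χ => m χ = 0) with hR
  have hvals : ∀ χ ∈ R, D χ = 14 ∨ D χ = 28 ∨ D χ = 32 := by
    intro χ hχ
    have hm0 : m χ = 0 := (Finset.mem_filter.1 hχ).2
    have hle : D χ * D χ ≤ 2280 := by
      have := Finset.single_le_sum (f := fun χ => D χ * D χ) (fun _ _ => Nat.zero_le _) hχ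
      omega
    have hlt : D χ < 48 := by
      by_contra h
      have : 48 * 48 ≤ D χ * D χ := Nat.mul_le_mul (by omega) (by omega)
      omega
    have e := hDmab χ
    have hb : b χ ≠ 0 := fun h => by
      have h1 := hb0 χ h
      have h2 := hm' χ
      rw [hm0, h1] at h2
      have := Finset.sum_eq_zero_iff.1 h2.symm 0 (Finset.mem_univ _)
      rw [hMone, if_pos rfl] at this
      omega
    have h6 := hno (D χ) (hDmem χ)
    have hd := hDdvd χ
    rw [hm0] at e
    generalize D χ = d at *
    interval_cases d <;> omega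
  have hsum : ∑ χ ∈ R, D χ * D χ = 196 * (R.filter fun χ => D χ = 14).card +
      784 * (R.filter fun χ => D χ = 28).card + 1024 * (R.filter fun χ => D χ = 32).card := by
    rw [Finset.card_filter, Finset.card_filter, Finset.card_filter, Finset.mul_sum, Finset.mul_sum,
      Finset.mul_sum, ← Finset.sum_add_distrib, ← Finset.sum_add_distrib]
    refine Finset.sum_congr rfl fun χ hχ => ?_
    rcases hvals χ hχ with h | h | h <;> simp [h]
  omega

end CfsgLib.OrderDegrees.Borel6048
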