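import Mathlib

/-!
A Frobenius group acting on an abelian group: some coset element has larger order.
-/

set_option autoImplicit false

namespace CfsgLib.OrderDegrees

/-- A group `Q` normalised fixed-point-freely by `x` (every `x^i ≠ 1` fixes only `1`), acting on the abelian
group `V` without fixed points, forces `v ^ |Q| = 1` unless some `w * x` with `w ∈ V` has order not dividing `r`. -/
theorem exists_pow_ne_one_of_frobenius_action {G : Type*} [Group G] [Finite G] (V Q : Subgroup G) (x : G) (r : ℕ)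
    (hr : 0 < r) (hxr : x ^ r = 1) (hV : ∀ a ∈ V, ∀ b ∈ V, a * b = b * a)
    (hQV : ∀ y ∈ Q, ∀ v ∈ V, y * v * y⁻¹ ∈ V) (hxV : ∀ v ∈ V, x * v * x⁻¹ ∈ V)
    (hxQ : ∀ y ∈ Q, x * y * x⁻¹ ∈ Q)
    (hfpf : ∀ i : ℕ, 0 < i → i < r → ∀ y ∈ Q, x ^ i * y * (x ^ i)⁻¹ = y → y = 1)
    (hCQ : ∀ v ∈ V, (∀ y ∈ Q, y * v * y⁻¹ = v) → v = 1)
    (v : G) (hv : v ∈ V) (hvQ : v ^ Nat.card Q ≠ 1) :
    ∃ w ∈ V, (w * x) ^ r ≠ 1 := by
  classical
  have := Fintype.ofFinite Q
  by_contra hcon
  push Not at hcon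
  let S : Subgroup G :=
    { carrier := {g | (∀ a ∈ V, g * a * g⁻¹ ∈ V) ∧ (∀ a ∈ V, g⁻¹ * a * g ∈ V)}
      mul_mem' := fun {g h} hg hh => by
        refine ⟨fun a ha => ?_, fun a ha => ?_⟩
        · simpa only [mul_inv_rev, mul_assoc] using hg.1 _ (hh.1 a ha)
        · simpa only [mul_inv_rev, mul_assoc] using hh.2 _ (hg.2 a ha)
      one_mem' := by simp
      inv_mem' := fun {g} hg => by simpa [Set.mem_ofPred_eq] using And.symm hg }
  have hQS : ∀ y ∈ Q, y ∈ S := fun y hy =>
    ⟨hQV y hy, fun a ha => by simpa using hQV y⁻¹ (Q.inv_mem hy) a ha⟩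
  have hxS : x ∈ S := by
    have hx' : ∀ i : ℕ, ∀ a ∈ V, x ^ i * a * (x ^ i)⁻¹ ∈ V := by
      intro i
      induction i with
      | zero => simp
      | succ i ih =>
        intro a ha
        simpa only [pow_succ', mul_inv_rev, mul_assoc] using hxV _ (ih a ha)
    refine ⟨hxV, fun a ha => ?_⟩
    have hinv : x⁻¹ = x ^ (r - 1) := by
      apply inv_eq_of_mul_eq_one_right
      rw [← pow_succ', Nat.sub_add_cancel hr, hxr]
    have := hx' (r - 1) a ha
    rwa [← hinv, inv_inv] at this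
  let Vc : CommGroup V := { (inferInstance : Group V) with mul_comm := fun a b => Subtype.ext (hV _ a.2 _ b.2) }
  let act : S → V →* V := fun g => MonoidHom.mk' (fun a => ⟨g * a * (g : G)⁻¹, g.2.1 a a.2⟩) fun a b =>
    Subtype.ext (by simp [mul_assoc])
  have act_mul : ∀ g h : S, ∀ a, act (g * h) a = act g (act h a) := fun g h a => Subtype.ext (by
    simp [act, mul_assoc])
  have act_one : ∀ a, act 1 a = a := fun a => Subtype.ext (by simp [act])
  let iQ : Q → S := fun y => ⟨y, hQS y y.2⟩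
  let xS : S := ⟨x, hxS⟩
  have avgQ : ∀ w : V, ∏ y : Q, act (iQ y) w = 1 := by
    intro w
    apply Subtype.ext
    refine hCQ _ (∏ y : Q, act (iQ y) w).2 fun z hz => ?_
    have : act (iQ ⟨z, hz⟩) (∏ y : Q, act (iQ y) w) = ∏ y : Q, act (iQ y) w := by
      rw [map_prod]
      exact Fintype.prod_equiv (Equiv.mulLeft (⟨z, hz⟩ : Q)) _ _ fun y => (act_mul _ _ w).symm
    exact congrArg Subtype.val this
  have avgX : ∀ w : V, ∏ i ∈ Finset.range r, act (xS ^ i) w = 1 := by
    intro w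
    have hpow : ∀ k : ℕ, ((w : G) * x) ^ k = ((∏ i ∈ Finset.range k, act (xS ^ i) w : V) : G) * x ^ k := by
      intro k
      induction k with
      | zero => simp
      | succ k ih =>
        rw [pow_succ, ih, Finset.prod_range_succ, Subgroup.coe_mul]
        simp [act, xS, pow_succ, mul_assoc]
    apply Subtype.ext
    have h := hcon w w.2
    rw [hpow r, hxr, mul_one] at h
    exact h
  let v' : V := ⟨v, hv⟩
  let tw : Q → ℕ → V := fun y i => act (iQ y * xS ^ i * (iQ y)⁻¹) v'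
  have h1 : ∀ y, ∏ i ∈ Finset.range r, tw y i = 1 := by
    intro y
    simp only [tw, act_mul]
    rw [← map_prod, avgX, map_one]
  have h2 : ∀ i, 0 < i → i < r → ∏ y : Q, tw y i = 1 := by
    intro i hi hir
    have hxQi : ∀ (i : ℕ) (y : G), y ∈ Q → x ^ i * y * (x ^ i)⁻¹ ∈ Q := by
      intro i
      induction i with
      | zero => simp
      | succ i ih =>
        intro y hy
        simpa only [pow_succ', mul_inv_rev, mul_assoc] using hxQ _ (ih y hy)
    let c : Q → Q := fun y => y * ⟨x ^ i * (y : G)⁻¹ * (x ^ i)⁻¹, hxQi i _ (Q.inv_mem y.2)⟩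
    have hc : Function.Injective c := by
      intro y z h
      have h' : (y : G) * (x ^ i * (y : G)⁻¹ * (x ^ i)⁻¹) = z * (x ^ i * (z : G)⁻¹ * (x ^ i)⁻¹) :=
        congrArg Subtype.val h
      have hfix : x ^ i * ((z : G)⁻¹ * y) * (x ^ i)⁻¹ = (z : G)⁻¹ * y := by
        calc x ^ i * ((z : G)⁻¹ * y) * (x ^ i)⁻¹
            = (z : G)⁻¹ * (z * (x ^ i * (z : G)⁻¹ * (x ^ i)⁻¹)) * (x ^ i * y * (x ^ i)⁻¹) := by group
          _ = (z : G)⁻¹ * (y * (x ^ i * (y : G)⁻¹ * (x ^ i)⁻¹)) * (x ^ i * y * (x ^ i)⁻¹) := by rw [h']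
          _ = (z : G)⁻¹ * y := by group
      have := hfpf i hi hir _ (Q.mul_mem (Q.inv_mem z.2) y.2) hfix
      exact Subtype.ext (inv_mul_eq_one.mp this).symm
    have htw : ∀ y, tw y i = act (iQ (c y)) (act (xS ^ i) v') := by
      intro y
      rw [← act_mul]
      simp only [tw]
      congr 2
      exact Subtype.ext (by simp [iQ, c, xS, mul_assoc])
    simp only [htw]
    rw [← avgQ (act (xS ^ i) v')]
    exact Fintype.prod_equiv (Equiv.ofBijective c hc.bijective_of_finite) _ _ fun y => rfl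
  have h3 : ∏ y : Q, tw y 0 = 1 := by
    have h := Finset.prod_comm (s := (Finset.univ : Finset Q)) (t := Finset.range r) (f := fun y i => tw y i)
    rw [Finset.prod_eq_one fun y _ => h1 y] at h
    rw [Finset.prod_eq_single 0] at h
    · exact h.symm
    · intro i hi hi0
      exact h2 i (Nat.pos_of_ne_zero hi0) (Finset.mem_range.mp hi)
    · intro h0
      exact absurd (Finset.mem_range.mpr hr) h0
  apply hvQ
  have h0 : ∀ y, tw y 0 = v' := fun y => by simp [tw, act_one]
  simp only [h0, Finset.prod_const, Finset.card_univ] at h3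
  rw [Nat.card_eq_fintype_card]
  exact congrArg Subtype.val h3

end CfsgLib.OrderDegrees
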