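import Cfsg.Agent.Lib.OrderDegrees.PrimeGraphSemidirect

/-!
Prime graphs of split extensions by `p`-modules, allowing fixed points of the elements whose prime is already
adjacent to `p` in the quotient.
-/

set_option autoImplicit false

namespace CfsgLib.OrderDegrees

open Matrix

/-- A split extension by a `p`-group in which nontrivial kernel elements commute with no element of
prime order `≠ p` has the same prime graph as the quotient. -/
theorem primeGraph_of_split_adjacent {H G : Type*} [Group H] [Group G] [Finite H] [Finite G] (p : ℕ) (hp : p.Prime)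
    (π : H →* G) (s : G →* H) (hs : ∀ g, π (s g) = g) (hker : ∀ x : H, π x = 1 → ∃ k : ℕ, x ^ p ^ k = 1)
    (hpG : p ∣ Nat.card G)
    (hfpf : ∀ a b : H, ∀ r : ℕ, r.Prime → r ≠ p → π a = 1 → orderOf b = r → a * b = b * a →
      a = 1 ∨ ∃ x : G, orderOf x = p * r) :
    (∀ r : ℕ, r.Prime → (r ∣ Nat.card G ↔ r ∣ Nat.card H)) ∧
    (∀ r t : ℕ, r.Prime → t.Prime → r ≠ t →
      ((∃ x : G, orderOf x = r * t) ↔ (∃ y : H, orderOf y = r * t))) := by
  have hsinj : Function.Injective s := fun a b h => by rw [← hs a, ← hs b, h]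
  have hkill : ∀ (y : H) (r : ℕ), r.Prime → r ≠ p → orderOf y = r → orderOf (π y) = r := by
    intro y r hr hrp hy
    rcases (Nat.dvd_prime hr).mp (hy ▸ orderOf_map_dvd π y) with h | h
    · exfalso
      obtain ⟨k, hk⟩ := hker y (orderOf_eq_one_iff.mp h)
      have := orderOf_dvd_of_pow_eq_one hk
      rw [hy] at this
      exact hrp ((Nat.prime_dvd_prime_iff_eq hr hp).mp (hr.dvd_of_dvd_pow this))
    · exact h
  constructor
  · intro r hr
    refine ⟨fun h => h.trans (Subgroup.card_dvd_of_injective s hsinj), fun h => ?_⟩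
    by_cases hrp : r = p
    · exact hrp ▸ hpG
    have : Fact r.Prime := ⟨hr⟩
    obtain ⟨y, hy⟩ := exists_prime_orderOf_dvd_card' r h
    exact (hkill y r hr hrp hy) ▸ orderOf_dvd_natCard (π y)
  intro r t hr ht hrt
  refine ⟨fun ⟨x, hx⟩ => ⟨s x, (orderOf_injective s hsinj x).trans hx⟩, fun ⟨y, hy⟩ => ?_⟩
  have hmain : ∀ r t : ℕ, r.Prime → t.Prime → r ≠ t → t ≠ p → orderOf y = r * t →
      ∃ x : G, orderOf x = r * t := by
    intro r t hr ht hrt htp hy
    have hb : orderOf (y ^ r) = t := by
      rw [orderOf_pow' y hr.ne_zero, hy, Nat.gcd_eq_right (dvd_mul_right r t), Nat.mul_div_cancel_left _ hr.pos]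
    have ha : orderOf (y ^ t) = r := by
      rw [orderOf_pow' y ht.ne_zero, hy, Nat.gcd_eq_right (dvd_mul_left t r), Nat.mul_div_cancel _ ht.pos]
    by_cases hadj : r = p ∧ ∃ x : G, orderOf x = p * t
    · exact hadj.1 ▸ hadj.2
    refine ⟨π y, Nat.dvd_antisymm (hy ▸ orderOf_map_dvd π y) ?_⟩
    have ht' : t ∣ orderOf (π y) := by
      have h := hkill _ t ht htp hb
      rw [map_pow] at h
      exact h ▸ orderOf_pow_dvd r
    have hr' : r ∣ orderOf (π y) := by
      by_cases hrp : r = p
      · rcases (Nat.dvd_prime hr).mp (ha ▸ orderOf_map_dvd π (y ^ t)) with h | h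
        · exfalso
          rcases hfpf (y ^ t) (y ^ r) t ht htp (orderOf_eq_one_iff.mp h) hb
            (by rw [← pow_add, ← pow_add, add_comm]) with h1 | h1
          · rw [h1, orderOf_one] at ha
            exact hr.one_lt.ne ha
          · exact hadj ⟨hrp, h1⟩
        · rw [map_pow] at h; exact h ▸ orderOf_pow_dvd t
      · have h := hkill _ r hr hrp ha
        rw [map_pow] at h
        exact h ▸ orderOf_pow_dvd t
    exact ((Nat.coprime_primes hr ht).mpr hrt).mul_dvd_of_dvd_of_dvd hr' ht'
  by_cases htp : t = p
  · obtain ⟨x, hx⟩ := hmain t r ht hr hrt.symm (fun h => hrt (h.trans htp.symm)) (by rw [hy, mul_comm])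
    exact ⟨x, by rw [hx, mul_comm]⟩
  · exact hmain r t hr ht hrt htp hy

/-- If for every element of prime order `r ≠ p` with a nonzero fixed vector on a module in characteristic `p`
the group has an element of order `p * r`, arbitrarily large groups have the prime graph of `G`. -/
theorem exists_large_primeGraph_adjacent {G : Type*} [Group G] [Finite G] {F : Type*} [Field F] [Finite F]
    {n : Type} [Fintype n] [DecidableEq n] [Nonempty n] (p : ℕ) [Fact p.Prime] [CharP F p]
    (ρ : G →* GL n F) (hpG : p ∣ Nat.card G)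
    (hfpf : ∀ (g : G) (r : ℕ), r.Prime → r ≠ p → orderOf g = r → ∀ v : n → F,
      (ρ g : Matrix n n F) *ᵥ v = v → v = 0 ∨ ∃ x : G, orderOf x = p * r) (N : ℕ) :
    ∃ (H : Type) (_ : Group H) (_ : Fintype H), N < Nat.card H ∧
      (∀ r : ℕ, r.Prime → (r ∣ Nat.card G ↔ r ∣ Nat.card H)) ∧
      (∀ r t : ℕ, r.Prime → t.Prime → r ≠ t →
        ((∃ x : G, orderOf x = r * t) ↔ (∃ y : H, orderOf y = r * t))) := by
  let act : G → MulAut (Multiplicative (Fin (N + 1) → n → F)) := fun g =>
    { toFun := fun v => Multiplicative.ofAdd fun i => (ρ g : Matrix n n F) *ᵥ (Multiplicative.toAdd v) i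
      invFun := fun v => Multiplicative.ofAdd fun i => (ρ g⁻¹ : Matrix n n F) *ᵥ (Multiplicative.toAdd v) i
      left_inv := fun v => by
        apply Multiplicative.toAdd.injective
        funext i
        simp only [toAdd_ofAdd, Matrix.mulVec_mulVec, ← Units.val_mul, ← map_mul, inv_mul_cancel, map_one,
          Units.val_one, Matrix.one_mulVec]
      right_inv := fun v => by
        apply Multiplicative.toAdd.injective
        funext i
        simp only [toAdd_ofAdd, Matrix.mulVec_mulVec, ← Units.val_mul, ← map_mul, mul_inv_cancel, map_one,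
          Units.val_one, Matrix.one_mulVec]
      map_mul' := fun v w => by
        apply Multiplicative.toAdd.injective
        funext i
        simp [Matrix.mulVec_add] }
  let φ : G →* MulAut (Multiplicative (Fin (N + 1) → n → F)) :=
    MonoidHom.mk' act fun g h => by
      ext v : 1
      apply Multiplicative.toAdd.injective
      funext i
      simp [act, Matrix.mulVec_mulVec]
  let H₀ := Multiplicative (Fin (N + 1) → n → F) ⋊[φ] G
  have hfin : Finite H₀ := Finite.of_equiv _ SemidirectProduct.equivProd.symm
  have hker : ∀ x : H₀, SemidirectProduct.rightHom x = 1 → ∃ k : ℕ, x ^ p ^ k = 1 := by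
    intro x hx
    obtain ⟨v, rfl⟩ : ∃ v, SemidirectProduct.inl v = x := by
      have : x ∈ (SemidirectProduct.rightHom : H₀ →* G).ker := hx
      rw [← SemidirectProduct.range_inl_eq_ker_rightHom] at this
      exact this
    refine ⟨1, ?_⟩
    rw [pow_one, ← map_pow]
    have : v ^ p = 1 := by
      apply Multiplicative.toAdd.injective
      funext i j
      simp [CharP.cast_eq_zero]
    rw [this, map_one]
  obtain ⟨h1, h2⟩ := primeGraph_of_split_adjacent p Fact.out (SemidirectProduct.rightHom : H₀ →* G)
    SemidirectProduct.inr (fun g => SemidirectProduct.rightHom_inr g) hker hpG (by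
      intro a b r hr hrp ha hb hab
      have hbr : orderOf b.right = r := by
        rcases (Nat.dvd_prime hr).mp (hb ▸ orderOf_map_dvd (SemidirectProduct.rightHom : H₀ →* G) b) with h | h
        · exfalso
          obtain ⟨k, hk⟩ := hker b (orderOf_eq_one_iff.mp h)
          have := orderOf_dvd_of_pow_eq_one hk
          rw [hb] at this
          exact hrp ((Nat.prime_dvd_prime_iff_eq hr Fact.out).mp (hr.dvd_of_dvd_pow this))
        · exact h
      have har : a.right = 1 := ha
      have hl := congrArg SemidirectProduct.left hab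
      rw [SemidirectProduct.mul_left, SemidirectProduct.mul_left, har, map_one, MulAut.one_apply,
        mul_comm b.left] at hl
      have hfix : φ b.right a.left = a.left := (mul_right_cancel hl).symm
      by_cases hadj : ∃ x : G, orderOf x = p * r
      · exact Or.inr hadj
      have hz : a.left = 1 := by
        apply Multiplicative.toAdd.injective
        funext i
        exact (hfpf b.right r hr hrp hbr _
          (congrFun (congrArg Multiplicative.toAdd hfix) i)).resolve_right hadj
      exact Or.inl (SemidirectProduct.ext (by simpa using hz) (by simpa using har)))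
  obtain ⟨T, _, _, ⟨eM⟩⟩ := exists_type_zero_mulEquiv H₀
  refine ⟨T, inferInstance, inferInstance, ?_, ?_, ?_⟩
  · rw [Nat.card_congr eM.toEquiv, Nat.card_congr SemidirectProduct.equivProd, Nat.card_prod]
    have hV : N < Nat.card (Multiplicative (Fin (N + 1) → n → F)) := by
      rw [Nat.card_congr (Multiplicative.toAdd (α := Fin (N + 1) → n → F)), Nat.card_fun, Nat.card_fin]
      exact (Nat.lt_succ_self N).trans ((Nat.lt_two_pow_self).trans_le
        (Nat.pow_le_pow_left Finite.one_lt_card _))
    exact hV.trans_le (Nat.le_mul_of_pos_right _ Nat.card_pos)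
  · intro r hr
    rw [h1 r hr, Nat.card_congr eM.toEquiv]
  · intro r t hr ht hrt
    rw [h2 r t hr ht hrt]
    exact ⟨fun ⟨y, hy⟩ => ⟨eM.symm y, (MulEquiv.orderOf_eq eM.symm y).trans hy⟩,
      fun ⟨y, hy⟩ => ⟨eM y, (MulEquiv.orderOf_eq eM y).trans hy⟩⟩

end CfsgLib.OrderDegrees
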