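import Cfsg.Agent.Lib.OrderDegrees.BorelCount6048
import Cfsg.Agent.Lib.Amalgams.UnitaryThree
import Cfsg.Agent.Lib.ClassicalForms.Unitary.Simple
import Cfsg.Agent.Lib.ClassicalForms.Unitary.Center

/-!
The character degrees of `PSU(3,3)` that are needed for its degree graph.
-/

set_option autoImplicit false

open Matrix Cfsg
open scoped MatrixGroups commutatorElement

namespace CfsgLib.OrderDegrees.PSUThreeThree

open CfsgLib.Amalgams

variable {F : Type*} [Field F] {σ : F →+* F}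

/-- A diagonal matrix. -/
def dMat (σ : F →+* F) (l : Fˣ) : Matrix (Fin 3) (Fin 3) F :=
  !![(l : F), 0, 0; 0, σ l / l, 0; 0, 0, (σ l)⁻¹]

theorem dMat_det (l : Fˣ) : (dMat σ l).det = 1 := by
  have hσ : σ (l : F) ≠ 0 := by simp
  have hl : (l : F) ≠ 0 := l.ne_zero
  simp [dMat, Matrix.det_fin_three]
  field_simp

theorem dMat_one : dMat σ (1 : Fˣ) = 1 := by
  ext i j
  fin_cases i <;> fin_cases j <;> simp [dMat]

theorem dMat_mul (a b : Fˣ) : dMat σ (a * b) = dMat σ a * dMat σ b := by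
  ext i j
  fin_cases i <;> fin_cases j <;>
    simp [dMat, Matrix.mul_apply, Fin.sum_univ_three, mul_comm, mul_div_mul_comm]

theorem dMat_form (hσσ : ∀ x, σ (σ x) = x) (l : Fˣ) :
    (dMat σ l)ᵀ * antiForm * (dMat σ l).map σ = antiForm := by
  have hσ : σ (l : F) ≠ 0 := by simp
  have hl : (l : F) ≠ 0 := l.ne_zero
  ext i j
  fin_cases i <;> fin_cases j <;>
    simp [dMat, antiForm, Matrix.mul_apply, Fin.sum_univ_three, map_div₀, hσσ] <;> field_simp

variable [Finite F] (h : UniField F σ 3)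
include h

theorem charP_three : CharP F 3 := by
  have := Fintype.ofFinite F
  obtain ⟨p, hp⟩ := CharP.exists F
  obtain ⟨n, hpp, hn⟩ := FiniteField.card F p
  have h9 : p ^ (n : ℕ) = 3 ^ 2 := by rw [← hn, ← Nat.card_eq_fintype_card, h.card]
  have : p = 3 := (Nat.prime_dvd_prime_iff_eq hpp Nat.prime_three).1
    (hpp.dvd_of_dvd_pow (h9 ▸ dvd_pow_self p n.pos.ne'))
  exact this ▸ hp

theorem three_eq_zero : (3 : F) = 0 := by
  have := charP_three h
  exact_mod_cast CharP.cast_eq_zero F 3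

theorem units_pow_eight (l : Fˣ) : l ^ 8 = 1 := by
  have hc : Nat.card Fˣ = 8 := by rw [Nat.card_units, h.card]; norm_num
  exact hc ▸ pow_card_eq_one'

theorem pow_eight {x : F} (hx : x ≠ 0) : x ^ 8 = 1 := by
  simpa using congrArg (Units.val) (units_pow_eight h (Units.mk0 x hx))

/-- A diagonal element. -/
noncomputable def dEl : Fˣ →* suAnti σ where
  toFun l := ⟨⟨dMat σ l, dMat_det l⟩, mem_suAnti.2 (dMat_form h.conj_conj l)⟩
  map_one' := mat₃_injective σ dMat_one
  map_mul' a b := mat₃_injective σ (dMat_mul a b)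

theorem mat₃_dEl (l : Fˣ) :
    mat₃ σ (dEl h l) = !![(l : F), 0, 0; 0, σ l / l, 0; 0, 0, (σ l)⁻¹] := rfl

omit h

/-- The upper triangular subgroup. -/
def upper : Subgroup (suAnti σ) where
  carrier := {x | mat₃ σ x 1 0 = 0 ∧ mat₃ σ x 2 0 = 0 ∧ mat₃ σ x 2 1 = 0}
  one_mem' := by simp
  mul_mem' {a b} ha hb := by
    obtain ⟨a1, a2, a3⟩ := ha
    obtain ⟨b1, b2, b3⟩ := hb
    simp [Matrix.mul_apply, Fin.sum_univ_three, a1, a2, a3, b1, b2, b3]
  inv_mem' {a} ha := by
    obtain ⟨m, hm⟩ : ∃ m : ℕ, a ^ m = a⁻¹ :=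
      (mem_powers_iff_mem_zpowers.2 (inv_mem (Subgroup.mem_zpowers a)) : a⁻¹ ∈ Submonoid.powers a)
    rw [← hm]
    clear hm
    induction m with
    | zero => simp
    | succ m ih =>
      obtain ⟨a1, a2, a3⟩ := ha
      obtain ⟨b1, b2, b3⟩ := ih
      simp only [map_pow] at b1 b2 b3
      simp [pow_succ, Matrix.mul_apply, Fin.sum_univ_three, a1, a2, a3, b1, b2, b3]

/-- The top left entry of an upper triangular element. -/
noncomputable def corner : upper (σ := σ) →* Fˣ :=
  MonoidHom.toHomUnits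
    { toFun := fun x => mat₃ σ (x : suAnti σ) 0 0
      map_one' := by simp
      map_mul' := fun a b => by
        obtain ⟨b1, b2, -⟩ := b.2
        simp [Matrix.mul_apply, Fin.sum_univ_three, b1, b2] }

theorem coe_corner (x : upper (σ := σ)) : (corner x : F) = mat₃ σ (x : suAnti σ) 0 0 := rfl

include h

theorem dEl_mem (l : Fˣ) : dEl h l ∈ upper (σ := σ) := by
  refine ⟨?_, ?_, ?_⟩ <;> simp [mat₃_dEl]

theorem uEl_mem {b c : F} (hc : c + σ c + b * σ b = 0) :
    uEl₃ h.conj_conj b c hc ∈ upper (σ := σ) := by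
  refine ⟨?_, ?_, ?_⟩ <;> simp [uMat₃]

/-- An upper triangular element with corner one is a root element. -/
theorem eq_uEl {x : upper (σ := σ)} (hx : corner x = 1) :
    ∃ (b c : F) (hc : c + σ c + b * σ b = 0), (x : suAnti σ) = uEl₃ h.conj_conj b c hc := by
  obtain ⟨a1, a2, a3⟩ := x.2
  have a0 : mat₃ σ (x : suAnti σ) 0 0 = 1 := by rw [← coe_corner, hx, Units.val_one]
  set M := mat₃ σ (x : suAnti σ) with hM
  have hform : Mᵀ * antiForm * M.map σ = antiForm := mem_suAnti.1 (x : suAnti σ).2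
  have ent : ∀ i j : Fin 3, (Mᵀ * (antiForm : Matrix (Fin 3) (Fin 3) F) * M.map σ) i j =
      (antiForm : Matrix (Fin 3) (Fin 3) F) i j := fun i j => by rw [hform]
  have e02 := ent 0 2
  have e12 := ent 1 2
  have e22 := ent 2 2
  simp [antiForm, Matrix.mul_apply, Fin.sum_univ_three, a1, a2, a3, a0] at e02 e12 e22
  have h22 : M 2 2 = 1 := by
    simpa [h.conj_conj] using congrArg σ e02
  have hdet : M.det = 1 := ((x : suAnti σ) : SL(3, F)).2
  simp [Matrix.det_fin_three, a1, a2, a3, a0, h22] at hdet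
  rw [h22, map_one, hdet, mul_one, one_mul] at e12
  rw [h22] at e22
  have h01 : M 0 1 = -σ (M 1 2) := by linear_combination e12
  refine ⟨M 1 2, M 0 2, ?_, mat₃_injective σ ?_⟩
  · simp at e22
    linear_combination e22
  · rw [mat₃_uEl, ← hM]
    ext i j
    fin_cases i <;> fin_cases j <;> simp [uMat₃, a1, a2, a3, a0, h22, hdet, h01]

theorem upper_decomp (x : upper (σ := σ)) :
    ∃ (b c : F) (hc : c + σ c + b * σ b = 0),
      (x : suAnti σ) = dEl h (corner x) * uEl₃ h.conj_conj b c hc := by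
  obtain ⟨b, c, hc, e⟩ := eq_uEl h
    (x := (⟨dEl h (corner x), dEl_mem h _⟩ : upper (σ := σ))⁻¹ * x) (by
      rw [map_mul, map_inv, inv_mul_eq_one]
      refine Units.ext ?_
      rw [coe_corner]
      simp [mat₃_dEl])
  refine ⟨b, c, hc, ?_⟩
  rw [← e]
  simp

theorem skew_cases {i0 s : F} (hi : σ i0 = -i0) (hi0 : i0 ≠ 0) (hs : σ s = -s) :
    s = 0 ∨ s = i0 ∨ s = -i0 := by
  rcases eq_or_ne s 0 with h0 | h0
  · exact Or.inl h0
  right
  have sq : ∀ {x : F}, σ x = -x → x ≠ 0 → x ^ 2 = -1 := fun {x} hx hx0 => by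
    rw [h.apply_eq] at hx
    exact mul_right_cancel₀ hx0 (by linear_combination hx)
  exact sq_eq_sq_iff_eq_or_eq_neg.1 ((sq hs h0).trans (sq hi hi0).symm)

theorem card_skew : Nat.card {s : F // σ s = -s} = 3 := by
  obtain ⟨ε, hε0, hε⟩ := h.exists_skew
  have h3 := three_eq_zero h
  have hne : ε ≠ -ε := fun e => hε0 (by linear_combination ε * h3 - e)
  have e : {s : F | σ s = -s} = {0, ε, -ε} := Set.ext fun s => by
    constructor
    · exact skew_cases h hε hε0
    · rintro (rfl | rfl | rfl)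
      · simp
      · exact hε
      · show σ (-ε) = - -ε
        rw [map_neg, hε]
  show Nat.card ({s : F | σ s = -s} : Set F) = 3
  rw [e, Nat.card_coe_set_eq, Set.ncard_eq_three]
  exact ⟨0, ε, -ε, hε0.symm, fun e => hε0 (neg_eq_zero.1 e.symm), hne, rfl⟩

theorem form_iff {b c : F} : c + σ c + b * σ b = 0 ↔ σ (c - b * σ b) = -(c - b * σ b) := by
  rw [map_sub, map_mul, h.conj_conj]
  constructor
  · intro hc; linear_combination hc - (b * σ b) * three_eq_zero h
  · intro hc; linear_combination hc + (b * σ b) * three_eq_zero h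

theorem card_upper : Nat.card (upper (σ := σ)) = 216 := by
  have hval : ∀ (b : F) (s : {s : F // σ s = -s}),
      (b * σ b + s.1) + σ (b * σ b + s.1) + b * σ b = 0 := fun b s =>
    (form_iff h).2 (by rw [add_sub_cancel_left]; exact s.2)
  let f : Fˣ × F × {s : F // σ s = -s} → upper (σ := σ) := fun x =>
    ⟨dEl h x.1 * uEl₃ h.conj_conj x.2.1 _ (hval x.2.1 x.2.2), mul_mem (dEl_mem h _) (uEl_mem h _)⟩
  have hf : Function.Bijective f := by
    constructor
    · rintro ⟨l, b, s⟩ ⟨l', b', s'⟩ e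
      have e' := congrArg (fun x : upper (σ := σ) => mat₃ σ (x : suAnti σ)) e
      simp only [f, map_mul, mat₃_dEl, mat₃_uEl] at e'
      have e00 := congrFun (congrFun e' 0) 0
      have e12 := congrFun (congrFun e' 1) 2
      have e02 := congrFun (congrFun e' 0) 2
      simp [uMat₃, Matrix.mul_apply, Fin.sum_univ_three] at e00 e12 e02
      obtain rfl := Units.ext e00
      obtain rfl : b = b' := by simpa using e12
      obtain rfl : s = s' := Subtype.ext (by simpa using e02)
      rfl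
    · intro x
      obtain ⟨b, c, hc, e⟩ := upper_decomp h x
      refine ⟨(corner x, b, ⟨c - b * σ b, (form_iff h).1 hc⟩), Subtype.ext ?_⟩
      rw [e]
      show dEl h (corner x) * _ = dEl h (corner x) * _
      congr 1
      exact mat₃_injective σ (by simp)
  rw [← Nat.card_congr (Equiv.ofBijective f hf), Nat.card_prod, Nat.card_prod, card_skew h,
    Nat.card_units, h.card]
  norm_num

theorem mem_upper_of_conj {x : suAnti σ} (hx : x ∈ upper (σ := σ))
    (hw : (wEl₃ σ)⁻¹ * x * wEl₃ σ ∈ upper (σ := σ)) : x = dEl h (corner ⟨x, hx⟩) := by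
  have hinv : (wEl₃ σ)⁻¹ = wEl₃ σ := inv_eq_of_mul_eq_one_right (mat₃_injective σ (by
    ext i j
    fin_cases i <;> fin_cases j <;> simp [wMat₃, Matrix.mul_apply, Fin.sum_univ_three]))
  obtain ⟨b, c, hc, e⟩ := upper_decomp h ⟨x, hx⟩
  obtain ⟨w1, w2, -⟩ := hw
  change x = _ at e
  set l := corner ⟨x, hx⟩
  rw [hinv, e] at w1 w2
  simp [mat₃_dEl, wMat₃, uMat₃, Matrix.mul_apply, Fin.sum_univ_three] at w1 w2
  subst w1 w2
  rw [e, show uEl₃ h.conj_conj 0 0 hc = 1 from mat₃_injective σ (by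
    ext i j
    fin_cases i <;> fin_cases j <;> simp [uMat₃]), mul_one]

theorem conj_dEl (l : Fˣ) : (wEl₃ σ)⁻¹ * dEl h l * wEl₃ σ = dEl h (l ^ 5) := by
  rw [mul_assoc, inv_mul_eq_iff_eq_mul]
  apply mat₃_injective σ
  rw [map_mul, map_mul, mat₃_wEl, mat₃_dEl, mat₃_dEl]
  have h8 := pow_eight h l.ne_zero
  have hl : (l : F) ≠ 0 := l.ne_zero
  ext i j
  fin_cases i <;> fin_cases j <;>
    simp [wMat₃, Matrix.mul_apply, Fin.sum_univ_three, h.apply_eq, Units.val_pow_eq_pow_val]
  all_goals field_simp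
  all_goals grind

theorem uEl_comm {b c b' c' : F} (hc : c + σ c + b * σ b = 0) (hc' : c' + σ c' + b' * σ b' = 0) :
    ∃ hs : (σ b' * b - σ b * b') + σ (σ b' * b - σ b * b') + 0 * σ 0 = 0,
      uEl₃ h.conj_conj b c hc * uEl₃ h.conj_conj b' c' hc' =
        uEl₃ h.conj_conj 0 (σ b' * b - σ b * b') hs *
          (uEl₃ h.conj_conj b' c' hc' * uEl₃ h.conj_conj b c hc) := by
  refine ⟨by simp [h.conj_conj]; ring, mat₃_injective σ ?_⟩
  ext i j
  fin_cases i <;> fin_cases j <;> simp [uMat₃, Matrix.mul_apply, Fin.sum_univ_three] <;> ring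

/-- Root elements with nonzero first parameter are conjugate. -/
theorem isConj_uEl {b c b' c' : F} (hc : c + σ c + b * σ b = 0) (hc' : c' + σ c' + b' * σ b' = 0)
    (hb : b ≠ 0) (hb' : b' ≠ 0) :
    IsConj (uEl₃ h.conj_conj b c hc) (uEl₃ h.conj_conj b' c' hc') := by
  let l : Fˣ := Units.mk0 (b' / b) (div_ne_zero hb' hb) ^ 5
  have hl : (l : F) = (b' / b) ^ 5 := by simp [l]
  set c₁ := c * (l : F) * σ l with hc₁
  have hl0 : (l : F) ≠ 0 := l.ne_zero
  have hl5 : (l : F) ^ 5 = b' / b := by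
    rw [hl, ← pow_mul, show 5 * 5 = 8 * 3 + 1 by norm_num, pow_succ, pow_mul,
      pow_eight h (div_ne_zero hb' hb), one_pow, one_mul]
  have hbl : b * (σ l / l) * σ l = b' := by
    rw [h.apply_eq]
    have : ((l : F) ^ 3 / l) * (l : F) ^ 3 = (l : F) ^ 5 := by field_simp
    rw [mul_assoc, this, hl5]
    field_simp
  have hm : uMat₃ σ b' c₁ * !![(l : F), 0, 0; 0, σ l / l, 0; 0, 0, (σ l)⁻¹] =
      !![(l : F), 0, 0; 0, σ l / l, 0; 0, 0, (σ l)⁻¹] * uMat₃ σ b c := by
    have hσl : σ (l : F) ≠ 0 := by simp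
    ext i j
    fin_cases i <;> fin_cases j <;> simp [uMat₃, Matrix.mul_apply, Fin.sum_univ_three, hc₁, ← hbl,
      h.conj_conj] <;> field_simp
  have hc₁' : c₁ + σ c₁ + b' * σ b' = 0 := by
    rw [hc₁, ← hbl]
    simp only [map_mul, map_div₀, h.conj_conj]
    field_simp
    linear_combination hc * (l : F) * σ l
  have s1 : IsConj (uEl₃ h.conj_conj b c hc) (uEl₃ h.conj_conj b' c₁ hc₁') := by
    refine isConj_iff.2 ⟨dEl h l, ?_⟩
    rw [mul_inv_eq_iff_eq_mul]
    apply mat₃_injective σ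
    rw [map_mul, map_mul, mat₃_dEl, mat₃_uEl, mat₃_uEl, hm]
  refine s1.trans ?_
  have hσb : σ b' ≠ 0 := by simpa using hb'
  set e := -(c' - c₁) / σ b' with he
  have hs : σ (c' - c₁) = -(c' - c₁) := by
    rw [map_sub]; linear_combination hc' - hc₁'
  have hd : σ b' * e - σ e * b' = c' - c₁ := by
    rw [he, map_div₀, map_neg, hs, h.conj_conj]
    field_simp
    linear_combination -(c' - c₁) * three_eq_zero h
  refine isConj_iff.2 ⟨uEl₃ h.conj_conj e (e * σ e + 0) ((form_iff h).2 (by simp)), ?_⟩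
  obtain ⟨hs', hx⟩ := uEl_comm h (b := e) (c := e * σ e + 0) ((form_iff h).2 (by simp)) hc₁'
  rw [hx, ← mul_assoc, mul_inv_cancel_right]
  apply mat₃_injective σ
  ext i j
  fin_cases i <;> fin_cases j <;> simp [uMat₃, Matrix.mul_apply, Fin.sum_univ_three, hd]

/-- Degrees divisible by 21, 14 and 6. -/
theorem degrees_suAnti [IsSimpleGroup (suAnti σ)] (hcard : Nat.card (suAnti σ) = 6048) :
    (∃ d ∈ charDegrees (suAnti σ), 21 ∣ d) ∧ (∃ d ∈ charDegrees (suAnti σ), 14 ∣ d) ∧
      ∃ d ∈ charDegrees (suAnti σ), 6 ∣ d := by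
  obtain ⟨g, hg⟩ := h.exists_gen
  norm_num at hg
  let f : Multiplicative (ZMod 8) →* Fˣ :=
    { toFun := fun a => g ^ (Multiplicative.toAdd a).val
      map_one' := by simp
      map_mul' := fun a b => by
        have := pow_mod_orderOf g ((Multiplicative.toAdd a).val + (Multiplicative.toAdd b).val)
        rw [hg] at this
        rw [toAdd_mul, ZMod.val_add, ← pow_add, this] }
  have hf : Function.Bijective f := by
    have hinj : Function.Injective f := fun a b e => by
      have e' : (Multiplicative.toAdd a).val = (Multiplicative.toAdd b).val :=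
        pow_injOn_Iio_orderOf (by simp [hg, ZMod.val_lt]) (by simp [hg, ZMod.val_lt]) e
      exact Multiplicative.toAdd.injective (ZMod.val_injective 8 e')
    refine (Nat.bijective_iff_injective_and_card f).2 ⟨hinj, ?_⟩
    rw [Nat.card_congr Multiplicative.toAdd, Nat.card_zmod, Nat.card_units, h.card]
    norm_num
  let e := (MulEquiv.ofBijective f hf).symm
  have heg : e g = Multiplicative.ofAdd 1 := by
    rw [MulEquiv.symm_apply_eq]
    show g = g ^ (1 : ZMod 8).val
    rw [show (1 : ZMod 8).val = 1 from rfl, pow_one]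
  let π : upper (σ := σ) →* Multiplicative (ZMod 8) := e.toMonoidHom.comp corner
  have hker : ∀ u : π.ker, corner (u : upper (σ := σ)) = 1 := fun u =>
    e.map_eq_one_iff.1 u.2
  have hπ : π ⟨dEl h g, dEl_mem h g⟩ = Multiplicative.ofAdd 1 := by
    rw [← heg]
    show e (corner _) = e g
    congr 1
    exact Units.ext (by rw [coe_corner]; simp [mat₃_dEl])
  have hdinj : Function.Injective (dEl h) := fun a b e => by
    have := congrFun (congrFun (congrArg (mat₃ σ) e) 0) 0
    exact Units.ext (by simpa [mat₃_dEl] using this)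
  have hg0 : (g : F) ≠ 0 := g.ne_zero
  have hskew : σ (σ (g : F) * 1 - σ 1 * g) = -(σ (g : F) * 1 - σ 1 * g) := by
    simp [h.conj_conj]
  have hs0 : σ (g : F) * 1 - σ 1 * g ≠ 0 := fun e => by
    rw [mul_one, map_one, one_mul, sub_eq_zero, h.apply_eq] at e
    have h2 : g ^ 2 = 1 := Units.ext (by
      rw [Units.val_pow_eq_pow_val, Units.val_one]
      exact mul_right_cancel₀ hg0 (by linear_combination e))
    have := Nat.le_of_dvd (by norm_num) (hg ▸ orderOf_dvd_of_pow_eq_one h2)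
    omega
  set s₀ := σ (g : F) * 1 - σ 1 * g with hs₀
  let x₁ := uEl₃ h.conj_conj 1 (1 * σ 1 + 0) ((form_iff h).2 (by simp))
  let y₁ := uEl₃ h.conj_conj (g : F) (g * σ g + 0) ((form_iff h).2 (by simp))
  have hu₁ : ∀ (b c : F) (hc : c + σ c + b * σ b = 0),
      (⟨uEl₃ h.conj_conj b c hc, uEl_mem h hc⟩ : upper (σ := σ)) ∈ π.ker := fun b c hc => by
    show e (corner _) = 1
    rw [MulEquiv.map_eq_one_iff]
    exact Units.ext (by rw [coe_corner]; simp [uMat₃])
  let z := zEl₃ h.conj_conj s₀ hskew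
  have hzz : ∀ (a : F) (ha : σ a = -a) (b : F) (hb : σ b = -b) (hab : σ (a + b) = -(a + b)),
      zEl₃ h.conj_conj a ha * zEl₃ h.conj_conj b hb = zEl₃ h.conj_conj (a + b) hab :=
    fun a ha b hb hab => mat₃_injective σ (by
      ext i j
      fin_cases i <;> fin_cases j <;> simp [zEl₃, uMat₃, Matrix.mul_apply, Fin.sum_univ_three, add_comm])
  have hz2 : σ (s₀ + s₀) = -(s₀ + s₀) := by rw [map_add, hskew]; ring
  have hzsq : z ^ 2 = zEl₃ h.conj_conj (s₀ + s₀) hz2 := by rw [pow_two]; exact hzz _ _ _ _ hz2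
  have hz3' : z ^ 3 = 1 := by
    rw [pow_succ, hzsq, hzz _ hz2 _ hskew (by rw [map_add, hz2, hskew]; ring)]
    refine mat₃_injective σ ?_
    ext i j
    fin_cases i <;> fin_cases j <;> simp [zEl₃, uMat₃]
    linear_combination s₀ * three_eq_zero h
  have hz3 : orderOf z = 3 := by
    haveI : Fact (Nat.Prime 3) := ⟨Nat.prime_three⟩
    refine orderOf_eq_prime hz3' fun e => hs0 ?_
    have := congrFun (congrFun (congrArg (mat₃ σ) e) 0) 2
    simpa [z, zEl₃, uMat₃] using this
  have hzinv : IsConj z z⁻¹ := by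
    have : z⁻¹ = zEl₃ h.conj_conj (s₀ + s₀) hz2 := by
      rw [← hzsq]; exact inv_eq_of_mul_eq_one_right (by rw [← pow_succ']; exact hz3')
    rw [this]
    exact isConj_zEl h hskew hs0 hz2 fun e => hs0 (by linear_combination s₀ * three_eq_zero h - e)
  have hcomm : ⁅x₁, y₁⁆ = z := by
    obtain ⟨hs, hxy⟩ := uEl_comm h (b := (1 : F)) (c := 1 * σ 1 + 0) (b' := (g : F))
      (c' := g * σ g + 0) ((form_iff h).2 (by simp)) ((form_iff h).2 (by simp))
    change x₁ * y₁ = z * (y₁ * x₁) at hxy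
    rw [commutatorElement_def, hxy]
    group
  have hnc : commutator (suAnti σ) = ⊤ := by
    refine ((inferInstance : (commutator (suAnti σ)).Normal).eq_bot_or_eq_top).resolve_left fun hb => ?_
    have hz1 : z ∈ commutator (suAnti σ) :=
      hcomm ▸ Subgroup.commutator_mem_commutator (Subgroup.mem_top _) (Subgroup.mem_top _)
    rw [hb, Subgroup.mem_bot] at hz1
    rw [hz1, orderOf_one] at hz3
    omega
  have ht8 : orderOf (dEl h g) = 8 := by rw [orderOf_injective _ hdinj, hg]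
  refine Borel6048.exists_degrees hnc (upper (σ := σ)) π (t := dEl h g) (w := wEl₃ σ) (z := z)
    (dEl_mem h g) hπ hcard (card_upper h) ?_ ht8 ?_ hz3 ?_ hzinv ?_
  · intro b hb hwb
    rw [mem_upper_of_conj h hb hwb]
    obtain ⟨a, ha⟩ := hf.2 (corner ⟨b, hb⟩)
    rw [← ha]
    exact ⟨((Multiplicative.toAdd a).val : ℤ), by simp only; rw [zpow_natCast, ← map_pow]; rfl⟩
  · rw [conj_dEl, map_pow]
  · refine ⟨⟨⟨x₁, uEl_mem h _⟩, hu₁ _ _ _⟩, ⟨⟨y₁, uEl_mem h _⟩, hu₁ _ _ _⟩, ?_⟩
    simp only [commutatorElement_def, Subgroup.coe_mul, InvMemClass.coe_inv]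
    rw [← commutatorElement_def, hcomm]
  · intro u v hu hv
    have hne : ∀ u : π.ker, ((u : upper (σ := σ)) : suAnti σ) ∉ Subgroup.zpowers z →
        ∃ (b c : F) (hc : c + σ c + b * σ b = 0), b ≠ 0 ∧
          ((u : upper (σ := σ)) : suAnti σ) = uEl₃ h.conj_conj b c hc := by
      intro u hu
      obtain ⟨b, c, hc, e'⟩ := eq_uEl h (hker u)
      refine ⟨b, c, hc, ?_, e'⟩
      rintro rfl
      refine hu ?_
      rw [e']
      have hcs : σ c = -c := by simp at hc; linear_combination hc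
      rcases skew_cases h hskew hs0 hcs with rfl | rfl | rfl
      · rw [show uEl₃ h.conj_conj (0 : F) 0 hc = 1 from mat₃_injective σ (by
          ext i j; fin_cases i <;> fin_cases j <;> simp [uMat₃])]
        exact one_mem _
      · exact Subgroup.mem_zpowers z
      · rw [show uEl₃ h.conj_conj (0 : F) (-s₀) hc = z ^ 2 from mat₃_injective σ (by
          rw [hzsq]
          ext i j; fin_cases i <;> fin_cases j <;> simp [zEl₃, uMat₃]
          linear_combination -s₀ * three_eq_zero h)]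
        exact pow_mem (Subgroup.mem_zpowers z) 2
    obtain ⟨b, c, hc, hb, eu⟩ := hne u hu
    obtain ⟨b', c', hc', hb', ev⟩ := hne v hv
    rw [eu, ev]
    exact isConj_uEl h hc hc' hb hb'

omit h

theorem charDegrees_congr {A B : Type*} [Group A] [Group B] (e : A ≃* B) :
    charDegrees A = charDegrees B := by
  apply Set.ext
  intro d
  constructor
  · rintro ⟨χ, rfl⟩
    exact ⟨⟨_, CfsgLib.CharTheory.isIrrCharacter_comp_mulEquiv χ.2 e.symm⟩, by simp [charDegree]⟩
  · rintro ⟨χ, rfl⟩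
    exact ⟨⟨_, CfsgLib.CharTheory.isIrrCharacter_comp_mulEquiv χ.2 e⟩, by simp [charDegree]⟩

/-- `PSU(3,3)` has degrees divisible by 21, by 14 and by 6. -/
theorem degrees_psu {F : Type*} [Field F] [Fintype F] (hF : Fintype.card F = 9) :
    Nat.card (Cfsg.PSU 3 F 3) = 6048 ∧
    (∃ d ∈ charDegrees (Cfsg.PSU 3 F 3), 21 ∣ d) ∧ (∃ d ∈ charDegrees (Cfsg.PSU 3 F 3), 14 ∣ d) ∧
      ∃ d ∈ charDegrees (Cfsg.PSU 3 F 3), 6 ∣ d := by
  have hF' : Nat.card F = 3 ^ 2 := by rw [Nat.card_eq_fintype_card, hF]; norm_num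
  obtain ⟨σ, h⟩ := exists_uniField hF'
  obtain ⟨e⟩ := exists_suAnti_equiv h
  have hc : Subgroup.center (suAnti σ) = ⊥ := by
    rw [eq_bot_iff]
    intro x hx
    obtain ⟨s, hs, hm⟩ := scalar_of_mem_center h hx
    have hs1 : s = 1 := by
      haveI := charP_three h
      have : (s - 1) ^ 3 = 0 := by linear_combination hs + (s - s ^ 2) * three_eq_zero h
      exact sub_eq_zero.1 (eq_zero_of_pow_eq_zero this)
    rw [Subgroup.mem_bot]
    refine mat₃_injective σ ?_
    rw [hm, hs1, one_smul, map_one]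
  have hc' : Subgroup.center (Cfsg.SU 3 F 3) = ⊥ := by
    rw [eq_bot_iff]
    intro x hx
    have h1 : e.symm x ∈ Subgroup.center (suAnti σ) := Subgroup.mem_center_iff.2 fun y => by
      have := congrArg e.symm (Subgroup.mem_center_iff.1 hx (e y))
      simpa using this
    rw [hc, Subgroup.mem_bot, MulEquiv.map_eq_one_iff] at h1
    exact h1
  let E : Cfsg.PSU 3 F 3 ≃* suAnti σ :=
    ((QuotientGroup.quotientMulEquivOfEq hc').trans QuotientGroup.quotientBot).trans e.symm
  have hcard : Nat.card (Cfsg.PSU 3 F 3) = 6048 := by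
    have := CfsgLib.ClassicalForms.card_psu_mul (n := 3) hF' (by norm_num)
    rw [CfsgLib.ClassicalForms.card_gu hF' 3] at this
    norm_num [Finset.prod_range_succ] at this
    omega
  haveI := CfsgLib.ClassicalForms.isSimpleGroup_psu (n := 3) (q := 3) (F := F)
    (by rw [hF]; norm_num) le_rfl (by norm_num)
  haveI : Nontrivial (suAnti σ) := E.symm.toEquiv.nontrivial
  haveI : IsSimpleGroup (suAnti σ) :=
    IsSimpleGroup.isSimpleGroup_of_surjective E.toMonoidHom E.surjective
  rw [charDegrees_congr E]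
  exact ⟨hcard, degrees_suAnti h (by rw [← Nat.card_congr E.toEquiv, hcard])⟩

end CfsgLib.OrderDegrees.PSUThreeThree
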