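import Mathlib

/-!
Lemmas about Sylow numbers.
-/

set_option autoImplicit false

namespace CfsgLib.OrderDegrees

open scoped Pointwise

/-- If a Sylow `r`-subgroup normalises every Sylow `q`-subgroup (`q ≠ r`), then the `q`-part of the number of
Sylow `r`-subgroups is congruent to `1` mod `r`. -/
theorem qpart_card_sylow_modEq_one {G : Type*} [Group G] [Finite G] {r q : ℕ} [Fact r.Prime] [Fact q.Prime]
    (R : Sylow r G)
    (hR : ∀ Q : Sylow q G, (R : Subgroup G) ≤ Subgroup.normalizer ((Q : Subgroup G) : Set G)) :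
    q ^ (Nat.card (Sylow r G)).factorization q ≡ 1 [MOD r] := by
  set N := Subgroup.normalizer ((R : Subgroup G) : Set G) with hN
  let Q₀ : Sylow q ↥N := default
  obtain ⟨Q, hQ⟩ := (Q₀.2.map N.subtype).exists_le_sylow
  -- the orbit of R under Q
  let O : Set (Sylow r G) := MulAction.orbit ↥(Q : Subgroup G) R
  have hinv : ∀ (g : ↥(R : Subgroup G)) (S : Sylow r G), S ∈ O → (g : G) • S ∈ O := by
    rintro ⟨g, hg⟩ _ ⟨⟨u, hu⟩, rfl⟩
    refine ⟨⟨g * u * g⁻¹, (hR Q hg u).mp hu⟩, ?_⟩
    show (g * u * g⁻¹) • R = g • u • R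
    rw [mul_smul, mul_smul]
    congr 2
    rw [Sylow.smul_eq_iff_mem_normalizer]
    exact Subgroup.le_normalizer ((R : Subgroup G).inv_mem hg)
  let act : MulAction ↥(R : Subgroup G) O :=
    { smul := fun g S => ⟨(g : G) • (S : Sylow r G), hinv g S S.2⟩
      one_smul := fun S => Subtype.ext (one_smul G (S : Sylow r G))
      mul_smul := fun g h S => Subtype.ext (mul_smul (g : G) (h : G) (S : Sylow r G)) }
  have hfix : Nat.card (MulAction.fixedPoints ↥(R : Subgroup G) O) = 1 := by
    rw [Nat.card_eq_one_iff_unique]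
    refine ⟨⟨fun a b => ?_⟩, ⟨⟨⟨R, MulAction.mem_orbit_self R⟩, fun g => Subtype.ext ?_⟩⟩⟩
    · have key : ∀ a : MulAction.fixedPoints ↥(R : Subgroup G) O, ((a : O) : Sylow r G) = R := by
        rintro ⟨⟨S, hS⟩, ha⟩
        have hle : (R : Subgroup G) ≤ Subgroup.normalizer ((S : Subgroup G) : Set G) := by
          intro g hg
          exact Sylow.smul_eq_iff_mem_normalizer.mp (congrArg Subtype.val (ha ⟨g, hg⟩))
        have h1 : (R : Subgroup G) ⊓ Subgroup.normalizer ((S : Subgroup G) : Set G) =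
            (R : Subgroup G) ⊓ (S : Subgroup G) := R.2.inf_normalizer_sylow S
        rw [inf_eq_left.mpr hle] at h1
        exact Sylow.ext (R.3 S.2 (inf_eq_left.mp h1.symm))
      exact Subtype.ext (Subtype.ext ((key a).trans (key b).symm))
    · exact Sylow.smul_eq_iff_mem_normalizer.mpr (Subgroup.le_normalizer g.2)
  have hmod := R.2.card_modEq_card_fixedPoints O
  rw [hfix] at hmod
  -- its size is the q-part of the Sylow number
  have hstab : MulAction.stabilizer ↥(Q : Subgroup G) R = N.subgroupOf (Q : Subgroup G) := by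
    ext u
    exact Sylow.smul_eq_iff_mem_normalizer
  have hQN : N ⊓ (Q : Subgroup G) = (Q₀ : Subgroup ↥N).map N.subtype := by
    refine le_antisymm ?_ (le_inf (Subgroup.map_subtype_le _) hQ)
    intro u hu
    have hp : IsPGroup q ↥((Q : Subgroup G).subgroupOf N) :=
      Q.2.comap_of_injective N.subtype N.subtype_injective
    have := Q₀.3 hp (fun y hy => hQ ⟨y, hy, rfl⟩)
    exact ⟨⟨u, hu.1⟩, this ▸ (show (⟨u, hu.1⟩ : ↥N) ∈ (Q : Subgroup G).subgroupOf N from hu.2), rfl⟩
  have hO : Nat.card O = q ^ (Nat.card (Sylow r G)).factorization q := by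
    have hpos : 0 < Nat.card ↥(N.subgroupOf (Q : Subgroup G)) := Nat.card_pos
    have h1 : Nat.card O * Nat.card ↥(N.subgroupOf (Q : Subgroup G)) = Nat.card ↥(Q : Subgroup G) := by
      rw [← hstab, Nat.card_coe_set_eq, ← MulAction.index_stabilizer, Subgroup.index_mul_card]
    have h2 : Nat.card ↥(N.subgroupOf (Q : Subgroup G)) = q ^ (Nat.card ↥N).factorization q := by
      have e : Nat.card ↥(N.subgroupOf (Q : Subgroup G)) = Nat.card ↥(N ⊓ (Q : Subgroup G)) := by
        rw [← Subgroup.inf_subgroupOf_right]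
        exact Nat.card_congr (Subgroup.subgroupOfEquivOfLe inf_le_right).toEquiv
      rw [e, hQN, ← Sylow.card_eq_multiplicity Q₀]
      exact Nat.card_congr (Subgroup.equivMapOfInjective _ _ N.subtype_injective).toEquiv.symm
    have h3 : Nat.card G = Nat.card (Sylow r G) * Nat.card ↥N := by
      rw [Sylow.card_eq_index_normalizer R]; exact (Subgroup.index_mul_card _).symm
    rw [h2, Sylow.card_eq_multiplicity Q, h3, Nat.factorization_mul Nat.card_pos.ne' Nat.card_pos.ne',
      Finsupp.add_apply, pow_add] at h1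
    exact Nat.eq_of_mul_eq_mul_right (pow_pos (Fact.out : q.Prime).pos _) h1
  rwa [hO] at hmod

/-- A surjection that preserves the Sylow number has kernel normalising every Sylow subgroup. -/
theorem ker_le_normalizer_of_card_sylow {G H : Type*} [Group G] [Finite G] [Group H] [Finite H] (f : G →* H)
    (hf : Function.Surjective f) {r : ℕ} [Fact r.Prime] (hcard : Nat.card (Sylow r G) ≤ Nat.card (Sylow r H))
    (R : Sylow r G) : f.ker ≤ Subgroup.normalizer ((R : Subgroup G) : Set G) := by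
  intro k hk
  have hsurj := Sylow.mapSurjective_surjective hf r
  have hinj : Function.Injective (Sylow.mapSurjective hf (p := r)) :=
    (hsurj.bijective_of_nat_card_le hcard).1
  apply Sylow.smul_eq_iff_mem_normalizer.mp
  apply hinj
  apply Sylow.ext
  rw [Sylow.coe_mapSurjective, Sylow.coe_mapSurjective]
  ext y
  rw [Subgroup.mem_map, Subgroup.mem_map]
  have hk1 : f k = 1 := hk
  constructor
  · rintro ⟨x, hx, rfl⟩
    rw [Sylow.coe_subgroup_smul] at hx
    obtain ⟨z, hz, rfl⟩ := hx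
    exact ⟨z, hz, by simp [MulAut.conj_apply, hk1]⟩
  · rintro ⟨x, hx, rfl⟩
    refine ⟨k * x * k⁻¹, ?_, by simp [hk1]⟩
    rw [Sylow.coe_subgroup_smul]
    exact ⟨x, hx, rfl⟩

/-- A normal subgroup that normalises every Sylow subgroup of a group with trivial centre is trivial. -/
theorem eq_bot_of_normalizes_all_sylow {G : Type*} [Group G] [Finite G] (hZ : Subgroup.center G = ⊥)
    (K : Subgroup G) [hKn : K.Normal]
    (hK : ∀ (r : ℕ), r.Prime → r ∣ Nat.card G → ∀ R : Sylow r G,
      K ≤ Subgroup.normalizer ((R : Subgroup G) : Set G)) : K = ⊥ := by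
  by_contra hne
  obtain ⟨r, hr, hrK⟩ := Nat.exists_prime_and_dvd (n := Nat.card K) (mt Subgroup.card_eq_one.mp hne)
  have : Fact r.Prime := ⟨hr⟩
  have hrG : r ∣ Nat.card G := hrK.trans K.card_subgroup_dvd_card
  -- the r-elements of K lie in every Sylow r-subgroup
  have hmem : ∀ k ∈ K, (∃ i, k ^ r ^ i = 1) → ∀ R : Sylow r G, k ∈ (R : Subgroup G) := by
    intro k hk hki R
    have hz : IsPGroup r ↥(Subgroup.zpowers k) := by
      rintro ⟨_, j, rfl⟩
      obtain ⟨i, hi⟩ := hki
      refine ⟨i, Subtype.ext ?_⟩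
      show (k ^ j) ^ r ^ i = 1
      rw [← zpow_natCast, ← zpow_mul, mul_comm, zpow_mul, zpow_natCast, hi, one_zpow]
    have := hz.to_sup_of_normal_right' R.2 (Subgroup.zpowers_le.mpr (hK r hr hrG R hk))
    have h2 : Subgroup.zpowers k ⊔ (R : Subgroup G) = (R : Subgroup G) := R.3 this le_sup_right
    exact (h2 ▸ le_sup_left : Subgroup.zpowers k ≤ (R : Subgroup G)) (Subgroup.mem_zpowers k)
  let U : Subgroup G :=
    { carrier := {k | k ∈ K ∧ ∀ R : Sylow r G, k ∈ (R : Subgroup G)}
      mul_mem' := fun ha hb => ⟨K.mul_mem ha.1 hb.1, fun R => R.mul_mem (ha.2 R) (hb.2 R)⟩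
      one_mem' := ⟨K.one_mem, fun R => R.one_mem⟩
      inv_mem' := fun ha => ⟨K.inv_mem ha.1, fun R => R.inv_mem (ha.2 R)⟩ }
  have hUn : U.Normal := ⟨fun u hu g => ⟨hKn.conj_mem u hu.1 g, fun R => by
    have h := hu.2 (g⁻¹ • R)
    rw [Sylow.coe_subgroup_smul] at h
    obtain ⟨z, hz, hzu⟩ := h
    have hzu' : g⁻¹ * z * g = u := by simpa [MulAut.conj_apply] using hzu
    have : g * u * g⁻¹ = z := by rw [← hzu']; group
    rw [this]; exact hz⟩⟩
  obtain ⟨⟨k, hkK⟩, hk⟩ := exists_prime_orderOf_dvd_card' (G := K) r hrK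
  rw [Subgroup.orderOf_mk] at hk
  have hkU : k ∈ U := ⟨hkK, hmem k hkK ⟨1, by rw [pow_one, ← hk]; exact pow_orderOf_eq_one k⟩⟩
  let R : Sylow r G := default
  have hUR : U ≤ (R : Subgroup G) := fun u hu => hu.2 R
  have : (U.subgroupOf (R : Subgroup G)).Normal := inferInstance
  have hUne : U.subgroupOf (R : Subgroup G) ≠ ⊥ := by
    intro h
    have : (⟨k, hUR hkU⟩ : ↥(R : Subgroup G)) = 1 := Subgroup.mem_bot.mp (h ▸ (show (⟨k, hUR hkU⟩ : ↥(R : Subgroup G)) ∈ U.subgroupOf _ from hkU))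
    have hk1 : k = 1 := congrArg Subtype.val this
    rw [hk1, orderOf_one] at hk
    exact hr.one_lt.ne hk
  -- a central element of R in U
  obtain ⟨m, hm⟩ := IsPGroup.iff_card.mp (R.2.to_subgroup (U.subgroupOf (R : Subgroup G)))
  have hm0 : m ≠ 0 := by
    rintro rfl
    exact hUne (Subgroup.card_eq_one.mp (by rw [hm, pow_zero]))
  let actR : MulAction ↥(R : Subgroup G) ↥U :=
    { smul := fun g u => ⟨g * u * (g : G)⁻¹, hUn.conj_mem u u.2 g⟩
      one_smul := fun u => Subtype.ext (by show (1 : G) * u * (1 : G)⁻¹ = u; simp)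
      mul_smul := fun g h u => Subtype.ext (by
        show ((g * h : G)) * u * ((g * h : G))⁻¹ = g * (h * u * (h : G)⁻¹) * (g : G)⁻¹
        simp [mul_assoc]) }
  have hcardU : r ∣ Nat.card ↥U := by
    rw [← Nat.card_congr (Subgroup.subgroupOfEquivOfLe hUR).toEquiv, hm]
    exact dvd_pow_self r hm0
  have h1fix : (1 : ↥U) ∈ MulAction.fixedPoints ↥(R : Subgroup G) ↥U := fun g =>
    Subtype.ext (by show (g : G) * 1 * (g : G)⁻¹ = 1; simp)
  obtain ⟨z, hz, hz1⟩ := R.2.exists_fixed_point_of_prime_dvd_card_of_fixed_point _ hcardU h1fix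
  have hcent : ∀ g : G, g * (z : G) = z * g := by
    set C := Subgroup.centralizer ({(z : G)} : Set G) with hC
    have hle : ∀ (s : ℕ), s.Prime → s ∣ Nat.card G → ∃ S : Sylow s G, (S : Subgroup G) ≤ C := by
      intro s hs hsG
      have : Fact s.Prime := ⟨hs⟩
      rcases eq_or_ne s r with rfl | hsr
      · refine ⟨R, fun g hg => ?_⟩
        rw [hC, Subgroup.mem_centralizer_singleton_iff]
        have h := congrArg Subtype.val (hz ⟨g, hg⟩)
        exact mul_inv_eq_iff_eq_mul.mp h
      · let S : Sylow s G := default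
        refine ⟨S, fun g hg => ?_⟩
        rw [hC, Subgroup.mem_centralizer_singleton_iff]
        have h1 : g * z * g⁻¹ * (z : G)⁻¹ ∈ U := U.mul_mem (hUn.conj_mem _ z.2 g) (U.inv_mem z.2)
        have h2 : g * z * g⁻¹ * (z : G)⁻¹ ∈ (S : Subgroup G) := by
          have := (hK s hs hsG S z.2.1 g⁻¹).mp (S.inv_mem hg)
          simpa [mul_assoc] using S.mul_mem hg this
        obtain ⟨i, hi⟩ := R.2 ⟨_, hUR h1⟩
        obtain ⟨j, hj⟩ := S.2 ⟨_, h2⟩
        have hi' := orderOf_dvd_of_pow_eq_one (congrArg Subtype.val hi : (g * z * g⁻¹ * (z : G)⁻¹) ^ r ^ i = 1)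
        have hj' := orderOf_dvd_of_pow_eq_one (congrArg Subtype.val hj : (g * z * g⁻¹ * (z : G)⁻¹) ^ s ^ j = 1)
        have h := Nat.dvd_gcd hi' hj'
        rw [Nat.coprime_iff_gcd_eq_one.mp (((Nat.coprime_primes hr hs).mpr hsr.symm).pow i j), Nat.dvd_one,
          orderOf_eq_one_iff, mul_inv_eq_one, mul_inv_eq_iff_eq_mul] at h
        exact h
    have hCtop : C = ⊤ := by
      apply Subgroup.eq_top_of_card_eq
      apply Nat.dvd_antisymm C.card_subgroup_dvd_card
      rw [← Nat.factorization_prime_le_iff_dvd Nat.card_pos.ne' Nat.card_pos.ne']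
      intro s hs
      by_cases hsG : s ∣ Nat.card G
      · have : Fact s.Prime := ⟨hs⟩
        obtain ⟨S, hS⟩ := hle s hs hsG
        have hd := Subgroup.card_dvd_of_le hS
        rw [Sylow.card_eq_multiplicity] at hd
        exact (hs.pow_dvd_iff_le_factorization Nat.card_pos.ne').mp hd
      · rw [Nat.factorization_eq_zero_of_not_dvd hsG]; exact Nat.zero_le _
    intro g
    have := hCtop ▸ Subgroup.mem_top g
    rwa [hC, Subgroup.mem_centralizer_singleton_iff] at this
  have hzc : (z : G) ∈ Subgroup.center G := Subgroup.mem_center_iff.mpr hcent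
  rw [hZ, Subgroup.mem_bot] at hzc
  exact hz1 (Subtype.ext hzc.symm)

end CfsgLib.OrderDegrees
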