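import Cfsg.Agent.Lib.OrderDegrees.ThompsonWielandt.Radical
import Cfsg.Agent.Lib.StronglyPEmbedded.CharP

/-!
# The Thompson–Wielandt theorem for a pair of maximal subgroups

`M₁`, `M₂` are distinct core-free maximal subgroups with isomorphic cores, `A₁`, `B₁` their cores of
`M₁ ⊓ M₂` and `A₂`, `B₂` those of `A₁ ⊓ B₁`. If `A₂` and `B₂` are nontrivial then, for one prime `p`,
`F*(M₁) = O_p(M₁)`, `F*(M₂) = O_p(M₂)` and `A₂`, `B₂` are `p`-groups.
-/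

set_option autoImplicit false
set_option linter.style.haveILetI false

namespace CfsgLib.OrderDegrees.ThompsonWielandtPair

open Cfsg CfsgLib.Cores CfsgLib.OrderDegrees.ThompsonWielandt
open scoped commutatorElement Pointwise

variable {G : Type*} [Group G]

theorem le_normalizer_inf' {H K S : Subgroup G} (h1 : S ≤ Subgroup.normalizer (H : Set G))
    (h2 : S ≤ Subgroup.normalizer (K : Set G)) : S ≤ Subgroup.normalizer ((H ⊓ K : Subgroup G) : Set G) :=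
  le_normalizer_of_conj_mem fun _ hx _ hg =>
    Subgroup.mem_inf.2 ⟨conj_mem (h1 hx) hg.1, conj_mem (h2 hx) hg.2⟩

theorem le_centralizer_of_disjoint {X Y : Subgroup G} (hd : X ⊓ Y = ⊥)
    (h1 : X ≤ Subgroup.normalizer (Y : Set G)) (h2 : Y ≤ Subgroup.normalizer (X : Set G)) :
    X ≤ Subgroup.centralizer (Y : Set G) := by
  intro x hx
  rw [Subgroup.mem_centralizer_iff]
  intro y hy
  have hmem : x * y * x⁻¹ * y⁻¹ ∈ X ⊓ Y := by
    refine Subgroup.mem_inf.2 ⟨?_, mul_mem (conj_mem (h1 hx) hy) (inv_mem hy)⟩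
    have := mul_mem hx (conj_mem (h2 hy) (inv_mem hx))
    simpa [mul_assoc] using this
  rw [hd, Subgroup.mem_bot] at hmem
  exact ((mul_inv_eq_iff_eq_mul.1 (mul_inv_eq_one.1 hmem))).symm

theorem centralizer_normalizer_le {M X : Subgroup G} (h : M ≤ Subgroup.normalizer (X : Set G)) :
    M ≤ Subgroup.normalizer (Subgroup.centralizer (X : Set G) : Set G) := by
  refine le_normalizer_of_conj_mem fun m hm g hg => Subgroup.mem_centralizer_iff.2 fun x hx => ?_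
  have hx' : m⁻¹ * x * m ∈ X := by
    have := conj_mem (h (inv_mem hm)) hx
    simpa using this
  have hc := Subgroup.mem_centralizer_iff.1 hg _ hx'
  calc x * (m * g * m⁻¹) = m * ((m⁻¹ * x * m) * g) * m⁻¹ := by group
    _ = m * (g * (m⁻¹ * x * m)) * m⁻¹ := by rw [hc]
    _ = m * g * m⁻¹ * x := by group

theorem pc_le_centralizer {p q : ℕ} (hp : p.Prime) (hq : q.Prime) (hne : p ≠ q) {P Q : Subgroup G}
    (hP : IsPGroup p P) (hQ : IsPGroup q Q) (h1 : P ≤ Subgroup.normalizer (Q : Set G))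
    (h2 : Q ≤ Subgroup.normalizer (P : Set G)) : P ≤ Subgroup.centralizer (Q : Set G) :=
  haveI : Fact p.Prime := ⟨hp⟩
  haveI : Fact q.Prime := ⟨hq⟩
  le_centralizer_of_disjoint (IsPGroup.disjoint_of_ne p q hne P Q hP hQ).eq_bot h1 h2

theorem M_le_normalizer_pc (p : ℕ) (M : Subgroup G) :
    M ≤ Subgroup.normalizer (pc p M : Set G) :=
  Subgroup.le_normalizer.trans (normalizer_le_normalizer_pc p M)

theorem M_le_normalizer_lay (M : Subgroup G) : M ≤ Subgroup.normalizer (lay M : Set G) :=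
  Subgroup.le_normalizer.trans ((layRadical G).normalizer_le M)

/-- `F*(S) = O_p(S)` when the layer and all other `q`-cores vanish. -/
theorem generalizedFitting_eq_pCore [Finite G] {p : ℕ} [Fact p.Prime] {S : Subgroup G}
    (hl : lay S = ⊥) (hq : ∀ q : ℕ, q.Prime → q ≠ p → pc q S = ⊥) :
    generalizedFittingSubgroup S = pCore p S := by
  have hl' : layer S = ⊥ := (Subgroup.map_eq_bot_iff_of_injective _ S.subtype_injective).1 hl
  rw [generalizedFittingSubgroup, hl', bot_sup_eq]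
  refine le_antisymm ?_ (pCore_le_fittingSubgroup p)
  rw [fittingSubgroup_eq_iSup_pCore]
  refine iSup_le fun q => ?_
  rcases eq_or_ne (q : ℕ) p with h | h
  · rw [h]
  · rw [(Subgroup.map_eq_bot_iff_of_injective _ S.subtype_injective).1
      (hq q (Nat.prime_of_mem_primeFactors q.2) h)]
    exact bot_le

/-- The configuration of the theorem, symmetric in the two maximal subgroups. -/
structure Pair (M₁ M₂ A₁ B₁ A₂ B₂ : Subgroup G) : Prop where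
  max₁ : ∀ X : Subgroup G, X ≠ ⊥ → X ≤ M₁ → M₁ ≤ Subgroup.normalizer (X : Set G) →
    Subgroup.normalizer (X : Set G) = M₁
  max₂ : ∀ X : Subgroup G, X ≠ ⊥ → X ≤ M₂ → M₂ ≤ Subgroup.normalizer (X : Set G) →
    Subgroup.normalizer (X : Set G) = M₂
  ne : M₁ ≠ M₂
  A₁_le : A₁ ≤ M₁ ⊓ M₂
  A₁_normal : M₁ ≤ Subgroup.normalizer (A₁ : Set G)
  A₁_univ : ∀ X : Subgroup G, X ≤ M₁ ⊓ M₂ → M₁ ≤ Subgroup.normalizer (X : Set G) → X ≤ A₁
  B₁_le : B₁ ≤ M₂ ⊓ M₁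
  B₁_normal : M₂ ≤ Subgroup.normalizer (B₁ : Set G)
  B₁_univ : ∀ X : Subgroup G, X ≤ M₂ ⊓ M₁ → M₂ ≤ Subgroup.normalizer (X : Set G) → X ≤ B₁
  A₂_le : A₂ ≤ A₁ ⊓ B₁
  A₂_normal : M₁ ≤ Subgroup.normalizer (A₂ : Set G)
  A₂_univ : ∀ X : Subgroup G, X ≤ A₁ ⊓ B₁ → M₁ ≤ Subgroup.normalizer (X : Set G) → X ≤ A₂
  A₂_ne : A₂ ≠ ⊥
  B₂_le : B₂ ≤ B₁ ⊓ A₁
  B₂_normal : M₂ ≤ Subgroup.normalizer (B₂ : Set G)
  B₂_univ : ∀ X : Subgroup G, X ≤ B₁ ⊓ A₁ → M₂ ≤ Subgroup.normalizer (X : Set G) → X ≤ B₂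
  B₂_ne : B₂ ≠ ⊥
  card_pc : ∀ s : ℕ, Nat.card (pc s M₁) = Nat.card (pc s M₂)

namespace Pair

variable {M₁ M₂ A₁ B₁ A₂ B₂ : Subgroup G}

theorem symm (P : Pair M₁ M₂ A₁ B₁ A₂ B₂) : Pair M₂ M₁ B₁ A₁ B₂ A₂ where
  max₁ := P.max₂
  max₂ := P.max₁
  ne := P.ne.symm
  A₁_le := P.B₁_le
  A₁_normal := P.B₁_normal
  A₁_univ := P.B₁_univ
  B₁_le := P.A₁_le
  B₁_normal := P.A₁_normal
  B₁_univ := P.A₁_univ
  A₂_le := P.B₂_le
  A₂_normal := P.B₂_normal
  A₂_univ := P.B₂_univ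
  A₂_ne := P.B₂_ne
  B₂_le := P.A₂_le
  B₂_normal := P.A₂_normal
  B₂_univ := P.A₂_univ
  B₂_ne := P.A₂_ne
  card_pc s := (P.card_pc s).symm

variable (P : Pair M₁ M₂ A₁ B₁ A₂ B₂)

include P

theorem eq_bot_of_both {X : Subgroup G} (h1 : X ≤ M₁) (h1n : M₁ ≤ Subgroup.normalizer (X : Set G))
    (h2 : X ≤ M₂) (h2n : M₂ ≤ Subgroup.normalizer (X : Set G)) : X = ⊥ := by
  by_contra hne
  exact P.ne ((P.max₁ X hne h1 h1n).symm.trans (P.max₂ X hne h2 h2n))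

theorem A₂_le_B₁ : A₂ ≤ B₁ := P.A₂_le.trans inf_le_right

theorem B₁_le_M₁ : B₁ ≤ M₁ := P.B₁_le.trans inf_le_right

theorem B₁_le_M₂ : B₁ ≤ M₂ := P.B₁_le.trans inf_le_left

theorem A₂_le_M₁ : A₂ ≤ M₁ := P.A₂_le_B₁.trans P.B₁_le_M₁

theorem snIn_A₂ : SnIn A₂ M₂ :=
  (snIn_of_normal P.A₂_le_B₁ (P.B₁_le_M₁.trans P.A₂_normal)).trans
    (snIn_of_normal P.B₁_le_M₂ P.B₁_normal)

theorem snIn_B₂ : SnIn B₂ M₁ := P.symm.snIn_A₂

theorem centralizer_B₁_le : Subgroup.centralizer (B₁ : Set G) ≤ B₁ := by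
  have hne : B₁ ≠ ⊥ := fun h => P.B₂_ne (le_bot_iff.1 (h ▸ P.B₂_le.trans inf_le_left))
  have h2 : Subgroup.centralizer (B₁ : Set G) ≤ M₂ :=
    (Subgroup.centralizer_le_normalizer _).trans (P.max₂ B₁ hne P.B₁_le_M₂ P.B₁_normal).le
  have h1 : Subgroup.centralizer (B₁ : Set G) ≤ M₁ :=
    ((Subgroup.centralizer_le P.A₂_le_B₁).trans (Subgroup.centralizer_le_normalizer _)).trans
      (P.max₁ A₂ P.A₂_ne P.A₂_le_M₁ P.A₂_normal).le
  exact P.B₁_univ _ (le_inf h2 h1) (centralizer_normalizer_le P.B₁_normal)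

variable [Finite G]

theorem compIn_right {L : Subgroup G} (hL : CompIn L M₁) : CompIn L M₂ := by
  suffices hLB : L ≤ B₁ from
    CompIn.trans ⟨hL.1.restrict hLB P.B₁_le_M₁, hL.2⟩
      (snIn_of_normal P.B₁_le_M₂ P.B₁_normal)
  by_contra hLB
  have hlayM₂ : lay M₁ ≤ M₂ := by
    refine lay_le_iff.2 fun K hK => ?_
    rcases compIn_le_or_le_centralizer hK P.snIn_B₂ with h | h
    · exact h.trans (P.B₂_le.trans (inf_le_left.trans P.B₁_le_M₂))
    · exact (h.trans (Subgroup.centralizer_le_normalizer _)).trans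
        (P.max₂ B₂ P.B₂_ne (P.B₂_le.trans (inf_le_left.trans P.B₁_le_M₂)) P.B₂_normal).le
  have hLl : L ≤ lay M₁ := hL.le_lay
  have hBl : SnIn (B₁ ⊓ lay M₁) M₁ :=
    (snIn_of_normal inf_le_right
      (le_normalizer_inf' (hlayM₂.trans P.B₁_normal) Subgroup.le_normalizer)).trans
      (snIn_of_normal (Subgroup.map_subtype_le _) (M_le_normalizer_lay M₁))
  have hcen : L ≤ Subgroup.centralizer ((B₁ ⊓ lay M₁ : Subgroup G) : Set G) :=
    (compIn_le_or_le_centralizer hL hBl).resolve_left fun h => hLB (h.trans inf_le_left)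
  have hcomm : ⁅B₁, L⁆ ≤ B₁ ⊓ lay M₁ := by
    refine Subgroup.commutator_le.2 fun b hb l hl => Subgroup.mem_inf.2 ⟨?_, ?_⟩
    · have hlb : l * b⁻¹ * l⁻¹ ∈ B₁ :=
        conj_mem (P.B₁_normal (hlayM₂ (hLl hl))) (inv_mem hb)
      have := mul_mem hb hlb
      simpa [commutatorElement_def, mul_assoc] using this
    · exact mul_mem (conj_mem (M_le_normalizer_lay M₁ (P.B₁_le_M₁ hb)) (hLl hl))
        (inv_mem (hLl hl))
  have h1 : ⁅⁅B₁, L⁆, L⁆ = ⊥ :=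
    Subgroup.commutator_eq_bot_iff_le_centralizer.2
      (hcomm.trans (Subgroup.le_centralizer_iff.1 hcen))
  have h2 : ⁅⁅L, L⁆, B₁⁆ = ⊥ :=
    Subgroup.commutator_commutator_eq_bot_of_rotate (by rwa [Subgroup.commutator_comm L B₁]) h1
  rw [Subgroup.isPerfect_iff.1 hL.2.1, Subgroup.commutator_eq_bot_iff_le_centralizer] at h2
  exact hLB (h2.trans P.centralizer_B₁_le)

theorem lay_eq_bot : lay M₁ = ⊥ := by
  have h : lay M₁ = lay M₂ :=
    le_antisymm (lay_le_iff.2 fun _ hL => (P.compIn_right hL).le_lay)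
      (lay_le_iff.2 fun _ hL => (P.symm.compIn_right hL).le_lay)
  exact P.eq_bot_of_both (Subgroup.map_subtype_le _) (M_le_normalizer_lay M₁)
    (h ▸ Subgroup.map_subtype_le _) (h ▸ M_le_normalizer_lay M₂)

theorem exists_pc_A₂ : ∃ p : ℕ, p.Prime ∧ pc p A₂ ≠ ⊥ := by
  have hl : lay A₂ = ⊥ := by
    refine le_bot_iff.1 (P.lay_eq_bot ▸ ?_)
    exact lay_le_of_forall (M := M₁)
      ((snIn_of_normal (Subgroup.map_subtype_le _) (M_le_normalizer_lay A₂)).trans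
        (snIn_of_normal P.A₂_le_M₁ P.A₂_normal)) fun _ hL => hL.le_lay
  have hl' : layer A₂ = ⊥ := (Subgroup.map_eq_bot_iff_of_injective _ A₂.subtype_injective).1 hl
  haveI : Nontrivial A₂ := (Subgroup.nontrivial_iff_ne_bot A₂).2 P.A₂_ne
  have hf : fittingSubgroup A₂ ≠ ⊥ := by
    intro hf
    refine generalizedFittingSubgroup_ne_bot (G := A₂) ?_
    rw [generalizedFittingSubgroup, hl', hf, bot_sup_eq]
  rw [ne_eq, fittingSubgroup_eq_bot_iff] at hf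
  push Not at hf
  obtain ⟨q, hq, hne⟩ := hf
  exact ⟨q, hq, fun h => hne ((Subgroup.map_eq_bot_iff_of_injective _ A₂.subtype_injective).1 h)⟩

theorem exists_pc_B₂ : ∃ q : ℕ, q.Prime ∧ pc q B₂ ≠ ⊥ := P.symm.exists_pc_A₂

omit [Finite G] in
theorem pc_A₂_le_left (p : ℕ) : pc p A₂ ≤ pc p M₁ :=
  le_pc_of_normal ((pc_le p A₂).trans P.A₂_le_M₁)
    (P.A₂_normal.trans (normalizer_le_normalizer_pc p A₂)) (isPGroup_pc p A₂)

omit [Finite G] in
theorem pc_A₂_le_right (p : ℕ) : pc p A₂ ≤ pc p M₂ :=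
  le_pc ((snIn_of_normal (pc_le p A₂) (M_le_normalizer_pc p A₂)).trans P.snIn_A₂)
    (isPGroup_pc p A₂)

omit [Finite G] in
theorem normalizer_pc_A₂ {p : ℕ} (hX : pc p A₂ ≠ ⊥) :
    Subgroup.normalizer (pc p A₂ : Set G) = M₁ :=
  P.max₁ _ hX ((pc_le p A₂).trans P.A₂_le_M₁)
    (P.A₂_normal.trans (normalizer_le_normalizer_pc p A₂))

theorem pc_right_le {p s : ℕ} (hp : p.Prime) (hs : s.Prime) (hne : s ≠ p) (hX : pc p A₂ ≠ ⊥) :
    pc s M₂ ≤ M₁ := by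
  rw [← P.normalizer_pc_A₂ hX]
  refine le_trans ?_ (Subgroup.centralizer_le_normalizer _)
  exact (pc_le_centralizer hs hp hne (isPGroup_pc s M₂) (isPGroup_pc p M₂)
    ((pc_le s M₂).trans (M_le_normalizer_pc p M₂))
    ((pc_le p M₂).trans (M_le_normalizer_pc s M₂))).trans
      (Subgroup.centralizer_le (P.pc_A₂_le_right p))

theorem pc_left_le {p q : ℕ} (hp : p.Prime) (hq : q.Prime) (hne : p ≠ q) (hX : pc p A₂ ≠ ⊥)
    (hY : pc q B₂ ≠ ⊥) : pc q M₁ ≤ M₂ := by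
  haveI : Fact q.Prime := ⟨hq⟩
  set Q₀ := pc p M₂ ⊓ B₁ with hQ₀
  have hXQ : pc p A₂ ≤ Q₀ := le_inf (P.pc_A₂_le_right p) ((pc_le p A₂).trans P.A₂_le_B₁)
  have hQne : Q₀ ≠ ⊥ := fun h => hX (le_bot_iff.1 (h ▸ hXQ))
  have hQn : M₂ ≤ Subgroup.normalizer (Q₀ : Set G) :=
    le_normalizer_inf' (M_le_normalizer_pc p M₂) P.B₁_normal
  have hY₁ : pc q B₂ ≤ pc q M₁ := P.symm.pc_A₂_le_right q
  have hY₂ : pc q B₂ ≤ pc q M₂ := P.symm.pc_A₂_le_left q
  have hcen : Q₀ ≤ Subgroup.centralizer (pc q M₁ : Set G) := by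
    refine StronglyPEmbedded.le_centralizer_of_axb (p := q) (A := pc q B₂) (isPGroup_pc q B₂)
      (isPGroup_pc q M₁) ((hY₁.trans (pc_le q M₁)).trans (M_le_normalizer_pc q M₁)) ?_ ?_
      (inf_le_right.trans (P.B₁_le_M₁.trans (M_le_normalizer_pc q M₁))) ?_
    · intro r hr
      haveI : Fact p.Prime := ⟨hp⟩
      obtain ⟨k, hk⟩ := (IsPGroup.iff_orderOf.1 ((isPGroup_pc p M₂).to_le inf_le_left)) ⟨r, hr⟩
      rw [Subgroup.orderOf_mk] at hk
      rw [hk]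
      exact ((Nat.coprime_primes hp hq).2 hne).pow_left k
    · exact (inf_le_left.trans (pc_le_centralizer hp hq hne (isPGroup_pc p M₂) (isPGroup_pc q M₂)
        ((pc_le p M₂).trans (M_le_normalizer_pc q M₂))
        ((pc_le q M₂).trans (M_le_normalizer_pc p M₂)))).trans (Subgroup.centralizer_le hY₂)
    · refine (inf_le_right.trans (Subgroup.centralizer_le_normalizer _)).trans ?_
      rw [P.symm.normalizer_pc_A₂ hY]
      exact hQn
  exact ((Subgroup.le_centralizer_iff.1 hcen).trans (Subgroup.centralizer_le_normalizer _)).trans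
    (P.max₂ Q₀ hQne (inf_le_left.trans (pc_le p M₂)) hQn).le

theorem pc_left_le_of_ne {p q s : ℕ} (hp : p.Prime) (hq : q.Prime) (hs : s.Prime) (hsp : s ≠ p)
    (hX : pc p A₂ ≠ ⊥) (hY : pc q B₂ ≠ ⊥) : pc s M₁ ≤ M₂ := by
  by_cases h : s = q
  · subst h
    exact P.pc_left_le hp hs (Ne.symm hsp) hX hY
  · exact P.symm.pc_right_le hq hs h hY

theorem pc_right_le_of_ne_bot {p q r : ℕ} (hp : p.Prime) (hq : q.Prime) (hr : r.Prime)
    (hrp : r ≠ p) (hX : pc p A₂ ≠ ⊥) (hY : pc q B₂ ≠ ⊥) (hR : pc r M₁ ≠ ⊥) :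
    pc p M₂ ≤ M₁ := by
  haveI : Fact p.Prime := ⟨hp⟩
  have hRM : pc r M₁ ≤ M₂ := P.pc_left_le_of_ne hp hq hr hrp hX hY
  have hcen : pc r M₁ ≤ Subgroup.centralizer (pc p M₂ : Set G) := by
    refine StronglyPEmbedded.le_centralizer_of_axb (p := p) (A := pc p A₂) (isPGroup_pc p A₂)
      (isPGroup_pc p M₂) ((P.pc_A₂_le_right p).trans Subgroup.le_normalizer) ?_ ?_
      (hRM.trans (M_le_normalizer_pc p M₂)) ?_
    · intro x hx
      haveI : Fact r.Prime := ⟨hr⟩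
      obtain ⟨k, hk⟩ := (IsPGroup.iff_orderOf.1 (isPGroup_pc r M₁)) ⟨x, hx⟩
      rw [Subgroup.orderOf_mk] at hk
      rw [hk]
      exact ((Nat.coprime_primes hr hp).2 hrp).pow_left k
    · exact (pc_le_centralizer hr hp hrp (isPGroup_pc r M₁) (isPGroup_pc p M₁)
        ((pc_le r M₁).trans (M_le_normalizer_pc p M₁))
        ((pc_le p M₁).trans (M_le_normalizer_pc r M₁))).trans
          (Subgroup.centralizer_le (P.pc_A₂_le_left p))
    · refine (inf_le_right.trans (Subgroup.centralizer_le_normalizer _)).trans ?_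
      rw [P.normalizer_pc_A₂ hX]
      exact M_le_normalizer_pc r M₁
  exact ((Subgroup.le_centralizer_iff.1 hcen).trans (Subgroup.centralizer_le_normalizer _)).trans
    (P.max₁ _ hR (pc_le r M₁) (M_le_normalizer_pc r M₁)).le

/-- If all the `O_s` of each maximal subgroup lie in the other one, then `O_s(M₂) ≤ B₂` for the
primes `s` other than any `q` with `O_q(B₂) ≠ 1`. -/
theorem pc_le_B₂ {q s : ℕ} (hq : q.Prime) (hs : s.Prime) (hne : s ≠ q) (hY : pc q B₂ ≠ ⊥)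
    (h1 : pc q M₁ ≤ M₂) (h2 : pc s M₂ ≤ M₁) : pc s M₂ ≤ B₂ := by
  have hY₁ : pc q B₂ ≤ pc q M₁ := P.symm.pc_A₂_le_right q
  have hQne : pc q M₁ ≠ ⊥ := fun h => hY (le_bot_iff.1 (h ▸ hY₁))
  have hK : Subgroup.centralizer (pc q M₁ : Set G) ≤ A₁ := by
    refine P.A₁_univ _ (le_inf ?_ ?_) (centralizer_normalizer_le (M_le_normalizer_pc q M₁))
    · exact (Subgroup.centralizer_le_normalizer _).trans
        (P.max₁ _ hQne (pc_le q M₁) (M_le_normalizer_pc q M₁)).le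
    · exact ((Subgroup.centralizer_le hY₁).trans (Subgroup.centralizer_le_normalizer _)).trans
        (P.symm.normalizer_pc_A₂ hY).le
  have hsq : pc s M₂ ≤ Subgroup.centralizer (pc q M₁ : Set G) :=
    pc_le_centralizer hs hq hne (isPGroup_pc s M₂) (isPGroup_pc q M₁)
      (h2.trans (M_le_normalizer_pc q M₁)) (h1.trans (M_le_normalizer_pc s M₂))
  exact P.B₂_univ _
    (le_inf (P.B₁_univ _ (le_inf (pc_le s M₂) h2) (M_le_normalizer_pc s M₂)) (hsq.trans hK))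
    (M_le_normalizer_pc s M₂)

/-- The two maximal subgroups have a single prime in their Fitting subgroup. -/
theorem pc_eq_bot_of_ne {p : ℕ} (hp : p.Prime) (hX : pc p A₂ ≠ ⊥) {r : ℕ} (hr : r.Prime)
    (hrp : r ≠ p) : pc r M₁ = ⊥ := by
  by_contra hR
  obtain ⟨q, hq, hY⟩ := P.exists_pc_B₂
  have hP₁ : pc p M₁ ≠ ⊥ := fun h => hX (le_bot_iff.1 (h ▸ P.pc_A₂_le_left p))
  have hne2 : ∀ s, pc s M₁ ≠ ⊥ → pc s M₂ ≠ ⊥ := by
    intro s hs h
    refine hs (Subgroup.card_eq_one.1 ?_)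
    rw [P.card_pc s, h, Subgroup.card_bot]
  have h2 : ∀ s, s.Prime → pc s M₂ ≤ M₁ := by
    intro s hs
    by_cases h : s = p
    · subst h
      exact P.pc_right_le_of_ne_bot hs hq hr hrp hX hY hR
    · exact P.pc_right_le hp hs h hX
  obtain ⟨r', hr', hr'q, hR'⟩ : ∃ r', Nat.Prime r' ∧ r' ≠ q ∧ pc r' M₂ ≠ ⊥ := by
    by_cases h : p = q
    · exact ⟨r, hr, h ▸ hrp, hne2 r hR⟩
    · exact ⟨p, hp, h, hne2 p hP₁⟩
  have h1 : ∀ s, s.Prime → pc s M₁ ≤ M₂ := by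
    intro s hs
    by_cases h : s = q
    · subst h
      exact P.symm.pc_right_le_of_ne_bot hs hp hr' hr'q hY hX hR'
    · exact P.symm.pc_right_le hq hs h hY
  have hr'B : pc r' M₂ ≤ B₂ := P.pc_le_B₂ hq hr' hr'q hY (h1 q hq) (h2 r' hr')
  have hY' : pc r' B₂ ≠ ⊥ := fun h => hR' (le_bot_iff.1
    (h ▸ le_pc_of_normal hr'B ((P.B₂_le.trans (inf_le_left.trans P.B₁_le_M₂)).trans
      (M_le_normalizer_pc r' M₂)) (isPGroup_pc r' M₂)))
  have hqB : pc q M₂ ≤ B₂ :=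
    P.pc_le_B₂ hr' hq (Ne.symm hr'q) hY' (h1 r' hr') (h2 q hq)
  have hsn : SnIn (pc q M₂) M₁ :=
    (snIn_of_normal hqB ((P.B₂_le.trans (inf_le_left.trans P.B₁_le_M₂)).trans
      (M_le_normalizer_pc q M₂))).trans P.snIn_B₂
  have heq : pc q M₂ = pc q M₁ :=
    Subgroup.eq_of_le_of_card_ge (le_pc hsn (isPGroup_pc q M₂)) (P.card_pc q).le
  have := P.eq_bot_of_both (pc_le q M₁) (M_le_normalizer_pc q M₁) (heq ▸ pc_le q M₂)
    (heq ▸ M_le_normalizer_pc q M₂)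
  exact hY (le_bot_iff.1 (this ▸ P.symm.pc_A₂_le_right q))

theorem isPGroup_A₂ {p : ℕ} (hp : p.Prime) (hne : pc p M₁ ≠ ⊥) : IsPGroup p A₂ := by
  haveI : Fact p.Prime := ⟨hp⟩
  by_contra hnp
  set W := pRes p A₂ with hW
  have hWne : W ≠ ⊥ := pRes_ne_bot hp hnp
  have hNW : Subgroup.normalizer (W : Set G) = M₁ :=
    P.max₁ W hWne ((pRes_le p A₂).trans P.A₂_le_M₁)
      (P.A₂_normal.trans (normalizer_le_normalizer_pRes p A₂))
  have hBA : B₁ ≤ Subgroup.normalizer (A₂ : Set G) := P.B₁_le_M₁.trans P.A₂_normal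
  have hP₂ : pc p M₂ ≤ M₁ := by
    rw [← hNW]
    exact le_normalizer_pRes hp (snIn_of_normal (pc_le p M₂) (M_le_normalizer_pc p M₂))
      (isPGroup_pc p M₂) P.B₁_le_M₂ P.B₁_normal P.A₂_le_B₁ hBA
  set Q₀ := pc p M₁ ⊓ M₂ with hQ₀
  have hBQ : B₁ ≤ Subgroup.normalizer (Q₀ : Set G) :=
    le_normalizer_inf' (P.B₁_le_M₁.trans (M_le_normalizer_pc p M₁))
      (P.B₁_le_M₂.trans Subgroup.le_normalizer)
  have hQp : IsPGroup p Q₀ := (isPGroup_pc p M₁).to_le inf_le_left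
  have hconj : ∀ n ∈ M₂, ∀ x ∈ Q₀, n * x * n⁻¹ ∈ M₁ := by
    intro n hn x hx
    set Qn := Q₀.map (MulAut.conj n).toMonoidHom with hQn
    have hQnM₂ : Qn ≤ M₂ := by
      rintro _ ⟨y, hy, rfl⟩
      exact mul_mem (mul_mem hn hy.2) (inv_mem hn)
    have hBQn : B₁ ≤ Subgroup.normalizer (Qn : Set G) := by
      refine le_normalizer_of_conj_mem fun b hb g hg => ?_
      obtain ⟨y, hy, rfl⟩ := hg
      have hb' : n⁻¹ * b * n ∈ B₁ := by
        simpa using conj_mem (P.B₁_normal (inv_mem hn)) hb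
      refine ⟨_, conj_mem (hBQ hb') hy, ?_⟩
      simp only [MulEquiv.coe_toMonoidHom, MulAut.conj_apply]
      group
    have hQB : Qn ⊔ B₁ ≤ Subgroup.normalizer (B₁ : Set G) :=
      sup_le (hQnM₂.trans P.B₁_normal) Subgroup.le_normalizer
    have hle : Qn ≤ Subgroup.normalizer (W : Set G) :=
      le_normalizer_pRes hp (M := Qn ⊔ B₁)
        (snIn_of_normal le_sup_left (sup_le Subgroup.le_normalizer hBQn)) (hQp.map _)
        le_sup_right hQB P.A₂_le_B₁ hBA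
    rw [hNW] at hle
    exact hle ⟨x, hx, rfl⟩
  have hQB : Q₀ ≤ B₁ := by
    refine le_trans ?_ (P.B₁_univ (((M₁.subgroupOf M₂).normalCore).map M₂.subtype) ?_ ?_)
    · intro x hx
      exact ⟨⟨x, hx.2⟩, fun b => hconj b b.2 x hx, rfl⟩
    · refine le_inf (Subgroup.map_subtype_le _) ?_
      rintro _ ⟨y, hy, rfl⟩
      exact (Subgroup.normalCore_le (M₁.subgroupOf M₂)) hy
    · refine le_normalizer_of_conj_mem fun m hm g hg => ?_
      obtain ⟨y, hy, rfl⟩ := hg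
      exact ⟨⟨m, hm⟩ * y * ⟨m, hm⟩⁻¹,
        Subgroup.normalCore_normal _ |>.conj_mem y hy ⟨m, hm⟩, rfl⟩
  have hQP : Q₀ ≤ pc p M₂ :=
    le_pc ((snIn_of_normal hQB hBQ).trans (snIn_of_normal P.B₁_le_M₂ P.B₁_normal)) hQp
  have hP₂ne : pc p M₂ ≠ ⊥ := by
    intro h
    refine hne (Subgroup.card_eq_one.1 ?_)
    rw [P.card_pc p, h, Subgroup.card_bot]
  have hN : pc p M₂ ≤ Subgroup.normalizer (pc p M₁ : Set G) := hP₂.trans (M_le_normalizer_pc p M₁)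
  set S := pc p M₂ ⊔ pc p M₁ with hS
  have hSp : IsPGroup p S := IsPGroup.to_sup_of_normal_right' (isPGroup_pc p M₂) (isPGroup_pc p M₁) hN
  haveI : Group.IsNilpotent S := hSp.isNilpotent
  have htop : (pc p M₂).subgroupOf S = ⊤ := by
    by_contra hne'
    have hlt := Group.normalizerCondition_of_isNilpotent (G := S) _ (lt_top_iff_ne_top.2 hne')
    refine hlt.not_ge fun s hs => ?_
    have hs' : (s : G) ∈ Subgroup.normalizer (pc p M₂ : Set G) := by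
      rw [Subgroup.mem_normalizer_iff]
      intro g
      have hmem := fun t : S => Subgroup.mem_normalizer_iff.1 hs t
      refine ⟨fun hg => ?_, fun hg => ?_⟩
      · exact (hmem ⟨g, Subgroup.mem_sup_left hg⟩).1 hg
      · have hgS : g ∈ S := by
          have := mul_mem (mul_mem (inv_mem s.2) (Subgroup.mem_sup_left (T := pc p M₁) hg)) s.2
          simpa [mul_assoc] using this
        exact (hmem ⟨g, hgS⟩).2 hg
    rw [P.max₂ _ hP₂ne (pc_le p M₂) (M_le_normalizer_pc p M₂)] at hs'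
    obtain ⟨s, hsS⟩ := s
    have hsS' : s ∈ (pc p M₂ : Set G) * (pc p M₁ : Set G) := by
      rw [← Subgroup.coe_mul_of_left_le_normalizer_right _ _ hN]
      exact hsS
    obtain ⟨a, ha, b, hb, rfl⟩ := Set.mem_mul.1 hsS'
    refine Subgroup.mul_mem (pc p M₂) ha (hQP (Subgroup.mem_inf.2 ⟨hb, ?_⟩))
    have := mul_mem (inv_mem (pc_le p M₂ ha)) hs'
    simpa using this
  have hle : pc p M₁ ≤ pc p M₂ := fun x hx =>
    (Subgroup.subgroupOf_eq_top.1 htop) (Subgroup.mem_sup_right hx)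
  have heq : pc p M₁ = pc p M₂ :=
    Subgroup.eq_of_le_of_card_ge hle (P.card_pc p).ge
  exact hne (P.eq_bot_of_both (pc_le p M₁) (M_le_normalizer_pc p M₁) (heq ▸ pc_le p M₂)
    (heq ▸ M_le_normalizer_pc p M₂))

theorem gfit_core {p : ℕ} [Fact p.Prime] (h : ∀ r : ℕ, r.Prime → r ≠ p → pc r M₁ = ⊥) :
    generalizedFittingSubgroup A₁ = pCore p A₁ := by
  have hA : SnIn A₁ M₁ := snIn_of_normal (P.A₁_le.trans inf_le_left) P.A₁_normal
  refine generalizedFitting_eq_pCore ?_ fun r hr hrp => ?_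
  · refine le_bot_iff.1 (P.lay_eq_bot ▸ lay_le_of_forall (M := M₁) ?_ fun _ hL => hL.le_lay)
    exact (snIn_of_normal (Subgroup.map_subtype_le _) (M_le_normalizer_lay A₁)).trans hA
  · refine le_bot_iff.1 (h r hr hrp ▸ ?_)
    exact le_pc ((snIn_of_normal (pc_le r A₁) (M_le_normalizer_pc r A₁)).trans hA)
      (isPGroup_pc r A₁)

theorem main : ∃ p : ℕ, p.Prime ∧ IsPGroup p ↥(A₂ ⊔ B₂) ∧
    generalizedFittingSubgroup M₁ = pCore p M₁ ∧ generalizedFittingSubgroup A₁ = pCore p A₁ ∧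
    generalizedFittingSubgroup M₂ = pCore p M₂ ∧ generalizedFittingSubgroup B₁ = pCore p B₁ := by
  obtain ⟨p, hp, hX⟩ := P.exists_pc_A₂
  haveI : Fact p.Prime := ⟨hp⟩
  have h1 : ∀ r : ℕ, r.Prime → r ≠ p → pc r M₁ = ⊥ := fun r hr hrp =>
    P.pc_eq_bot_of_ne hp hX hr hrp
  have h2 : ∀ r : ℕ, r.Prime → r ≠ p → pc r M₂ = ⊥ := fun r hr hrp =>
    Subgroup.card_eq_one.1 (by rw [← P.card_pc r, h1 r hr hrp, Subgroup.card_bot])
  have hne1 : pc p M₁ ≠ ⊥ := fun h => hX (le_bot_iff.1 (h ▸ P.pc_A₂_le_left p))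
  have hne2 : pc p M₂ ≠ ⊥ := fun h => hX (le_bot_iff.1 (h ▸ P.pc_A₂_le_right p))
  refine ⟨p, hp, ?_, generalizedFitting_eq_pCore P.lay_eq_bot h1, P.gfit_core h1,
    generalizedFitting_eq_pCore P.symm.lay_eq_bot h2, P.symm.gfit_core h2⟩
  rw [sup_comm]
  exact IsPGroup.to_sup_of_normal_right' (P.symm.isPGroup_A₂ hp hne2) (P.isPGroup_A₂ hp hne1)
    ((P.B₂_le.trans inf_le_left).trans (P.B₁_le_M₁.trans P.A₂_normal))

end Pair

end CfsgLib.OrderDegrees.ThompsonWielandtPair
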